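import Mathlib
import Cfsg.Agent.Fus.Black3

/-! Janko: in a `2`-group `⟨x⟩⟨y⟩` every proper subgroup containing `x` is metacyclic. -/

set_option autoImplicit false

namespace Cfsg.Agent.Bicyc

open Subgroup Cfsg Cfsg.Agent.FT.R2
open scoped commutatorElement

universe u

variable {G : Type*} [Group G]

/-- `G = ⟨x⟩⟨y⟩`. -/
def Bi (x y : G) : Prop := ∀ g : G, ∃ i j : ℤ, g = x ^ i * y ^ j

theorem Bi.symm {x y : G} (h : Bi x y) : Bi y x := fun g => by
  obtain ⟨i, j, e⟩ := h g⁻¹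
  exact ⟨-j, -i, by rw [← inv_inv g, e]; simp⟩

theorem Bi.map {H : Type*} [Group H] {x y : G} (h : Bi x y) (f : G →* H)
    (hf : Function.Surjective f) : Bi (f x) (f y) := fun g => by
  obtain ⟨g, rfl⟩ := hf g
  obtain ⟨i, j, rfl⟩ := h g
  exact ⟨i, j, by simp⟩

theorem zpow_cases {z : G} (h : z * z = 1) (k : ℤ) : (Even k ∧ z ^ k = 1) ∨ (Odd k ∧ z ^ k = z) := by
  rcases Int.even_or_odd k with ⟨m, rfl⟩ | ⟨m, rfl⟩
  · exact Or.inl ⟨⟨m, rfl⟩, by rw [← two_mul, zpow_mul, zpow_two, h, one_zpow]⟩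
  · exact Or.inr ⟨⟨m, rfl⟩, by rw [zpow_add, zpow_mul, zpow_two, h, one_zpow, one_mul, zpow_one]⟩

theorem Bi.card_le {x y : G} (h : Bi x y) (hx : x * x = 1) (hy : y * y = 1) : Nat.card G ≤ 4 := by
  have : Function.Surjective fun p : Bool × Bool => (if p.1 then x else 1) * (if p.2 then y else 1) :=
    fun g => by
      obtain ⟨i, j, rfl⟩ := h g
      rcases zpow_cases hx i with ⟨-, e⟩ | ⟨-, e⟩ <;> rcases zpow_cases hy j with ⟨-, e'⟩ | ⟨-, e'⟩ <;>
        rw [e, e']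
      exacts [⟨(false, false), rfl⟩, ⟨(false, true), rfl⟩, ⟨(true, false), rfl⟩, ⟨(true, true), rfl⟩]
  simpa using Nat.card_le_card_of_surjective _ this

theorem card_le_of_meta (h : IsMetacyclic G) (h2 : ∀ g : G, g * g = 1) : Nat.card G ≤ 4 := by
  obtain ⟨a, b, hn, e⟩ := isMetacyclic_iff.1 h
  refine Bi.card_le (x := a) (y := b) (fun g => ?_) (h2 a) (h2 b)
  obtain ⟨_, ⟨i, rfl⟩, j, rfl⟩ := Grp.PChain.mem_sup_zpowers.1 (e ▸ mem_top g)
  exact ⟨i, j, rfl⟩

theorem mem_of_odd (hG : IsPGroup 2 G) {K : Subgroup G} {g : G} {k : ℤ} (hk : Odd k) (h : g ^ k ∈ K) :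
    g ∈ K := by
  obtain ⟨n, hn⟩ := hG g
  obtain ⟨a, b, e⟩ : IsCoprime k (2 ^ n) := (Int.isCoprime_two_right.2 hk).pow_right
  have : g = (g ^ k) ^ a := by
    rw [← zpow_mul, mul_comm, eq_sub_of_add_eq e, zpow_sub, mul_comm b, zpow_mul,
      show (2 : ℤ) ^ n = ((2 ^ n : ℕ) : ℤ) by simp, zpow_natCast, hn]
    simp
  exact this ▸ zpow_mem h a

theorem base (hG : IsPGroup 2 G) [Finite G] {x c z : G} (h : Bi x c) (z1 : z ≠ 1) (z2 : z * z = 1)
    (z3 : ∀ g, g * z = z * g) (hc : ∀ a b : G, ⁅a, b⁆ = 1 ∨ ⁅a, b⁆ = z) (β : G ≃* G) (b1 : β c = c)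
    (b2 : β z = z) (b3 : ∀ g, β (β g) = c * g * c⁻¹) : IsMetacyclic G := by
  have nz : ∀ g, z ∈ zpowers g → (zpowers g).Normal := fun g hg =>
    Grp.PChain.normal_of_commutator_mem fun a _ b => (hc a b).elim (· ▸ one_mem _) (· ▸ hg)
  have top : ∀ K : Subgroup G, x ∈ K → c ∈ K → K = ⊤ := fun K h1 h2 => eq_top_iff.2 fun g _ => by
    obtain ⟨i, j, rfl⟩ := h g
    exact mul_mem (zpow_mem h1 i) (zpow_mem h2 j)
  have m1 : ∀ i j : ℤ, Odd i ∨ Odd j → z ∈ zpowers (x ^ i * c ^ j) → IsMetacyclic G := by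
    rintro i j (hi | hj) hz
    · have m := mem_sup_right (S := zpowers (x ^ i * c ^ j)) (mem_zpowers c)
      exact isMetacyclic_iff.2 ⟨_, c, nz _ hz, top _ (mem_of_odd hG hi
        ((mul_mem_cancel_right (zpow_mem m j)).1 (mem_sup_left (mem_zpowers _)))) m⟩
    · have m := mem_sup_right (S := zpowers (x ^ i * c ^ j)) (mem_zpowers x)
      exact isMetacyclic_iff.2 ⟨_, x, nz _ hz, top _ m (mem_of_odd hG hj
        ((mul_mem_cancel_left (zpow_mem m i)).1 (mem_sup_left (mem_zpowers _))))⟩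
  by_cases e0 : x * c = c * x
  · refine isMetacyclic_iff.2 ⟨x, c, Grp.PChain.normal_of_commutator_mem fun a ha g => ?_,
      top _ (mem_sup_left (mem_zpowers x)) (mem_sup_right (mem_zpowers c))⟩
    obtain ⟨k, rfl⟩ := ha
    obtain ⟨i, j, rfl⟩ := h g
    have c0 : Commute x c := e0
    rw [commutatorElement_eq_one_iff_commute.2
      (((Commute.refl x).zpow_right i).mul_right (c0.zpow_right j) |>.zpow_left k)]
    exact one_mem _
  have e1 : ⁅x, c⁆ = z := (hc x c).resolve_left fun e => e0 (commutatorElement_eq_one_iff_mul_comm.1 e)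
  have cl : ∀ (a b : G) (k : ℤ), ⁅a ^ k, b⁆ = ⁅a, b⁆ ^ k := fun a b k =>
    Grp.CommPow.commutator_zpow_left (show Commute _ _ from by
      rcases hc a b with e | e <;> rw [e]
      exacts [Commute.one_left _, (z3 a).symm]) k
  have cr : ∀ (a b : G) (k : ℤ), ⁅a, b ^ k⁆ = ⁅a, b⁆ ^ k := fun a b k => by
    rw [← commutatorElement_inv, cl, ← inv_zpow, commutatorElement_inv]
  have sq : ∀ i j : ℤ, x ^ (2 * i) * c ^ (2 * j) = (x ^ i * c ^ j) ^ 2 * z ^ (i * j) := fun i j => by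
    have e : ⁅x ^ i, c ^ j⁆ = z ^ (i * j) := by rw [cl, cr, e1, ← zpow_mul, mul_comm]
    have c1 : Commute (x ^ i * c ^ j) (z ^ (i * j)) := (show Commute _ z from z3 _).zpow_right _
    have c2 : Commute (x ^ i) (z ^ (i * j)) := (show Commute _ z from z3 _).zpow_right _
    rw [pow_two, mul_assoc _ _ (z ^ (i * j)), c1.eq, ← mul_assoc, mul_assoc (x ^ i), ← mul_assoc,
      mul_assoc (x ^ i), (show Commute (c ^ j) z from z3 _).zpow_right, ← e, commutatorElement_def,
      two_mul, two_mul, zpow_add, zpow_add]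
    group
  have odd : ∀ i j : ℤ, Odd i → Odd j → (x ^ i * c ^ j) ^ 2 = 1 → z ∈ zpowers c := by
    intro i j hi hj h2
    have hx : x ^ (2 : ℤ) ∈ zpowers c ⊔ zpowers z := by
      refine mem_of_odd hG hi ((mul_mem_cancel_right (zpow_mem (mem_sup_left (mem_zpowers c))
        (2 * j))).1 ?_)
      rw [← zpow_mul, sq, h2, one_mul]
      exact zpow_mem (mem_sup_right (mem_zpowers z)) _
    have ec : ⁅x ^ i * c ^ j, c⁆ = z := by
      rw [show ⁅x ^ i * c ^ j, c⁆ = ⁅x ^ i, c⁆ by simp only [commutatorElement_def]; group, cl, e1]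
      exact ((zpow_cases z2 i).resolve_left fun e => Int.not_even_iff_odd.2 hi e.1).2
    generalize x ^ i * c ^ j = e at h2 ec
    obtain ⟨a, b, hd⟩ := h (β e * e⁻¹)
    have ce : c * e * c⁻¹ = z * e := by
      rw [← inv_eq_of_mul_eq_one_right z2, ← ec, commutatorElement_def]; group
    have cd : ⁅x ^ a, c⁆ = 1 := by
      have : c * (β e * e⁻¹) * c⁻¹ = β e * e⁻¹ := by
        rw [← conj_mul, ← conj_inv, ce, show c * β e * c⁻¹ = β (c * e * c⁻¹) by simp [b1], ce, map_mul,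
          b2, mul_inv_rev, ← z3, mul_assoc, ← mul_assoc z, ← z3, mul_inv_cancel_right]
      rw [hd, mul_inv_eq_iff_eq_mul, ← mul_assoc, mul_assoc (x ^ a), ← zpow_add_one, add_comm,
        zpow_one_add, ← mul_assoc, mul_left_inj] at this
      exact commutatorElement_eq_one_iff_mul_comm.2 this.symm
    rw [cl, e1] at cd
    obtain ⟨a, rfl⟩ := ((zpow_cases z2 a).resolve_right fun e => z1 (e.2.symm.trans cd)).1
    haveI := nz z (mem_zpowers z)
    have hd' : β e * e⁻¹ ∈ zpowers z ⊔ zpowers c := by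
      rw [hd, ← two_mul, zpow_mul, sup_comm]
      exact mul_mem (zpow_mem hx a) (zpow_mem (mem_sup_left (mem_zpowers c)) b)
    obtain ⟨_, ⟨l, rfl⟩, k, hk⟩ := Grp.PChain.mem_sup_zpowers.1 hd'
    dsimp only at hk
    have e3 : β e = z ^ l * c ^ k * e := by rw [← hk, inv_mul_cancel_right]
    have cz : ∀ g, Commute g (z ^ l) := fun g => (show Commute g z from z3 g).zpow_right l
    have zl : z ^ l * z ^ l = 1 := by rw [← (Commute.refl z).mul_zpow, z2, one_zpow]
    have e4 : c ^ k * (z ^ k * c ^ k) = 1 := by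
      have e5 : z ^ k = e * c ^ k * e⁻¹ * (c ^ k)⁻¹ := by rw [← ec, ← cr, commutatorElement_def]
      have e6 : β e * β e = 1 := by rw [← map_mul, ← pow_two, h2, map_one]
      rw [e5, inv_mul_cancel_right, inv_eq_of_mul_eq_one_right (by rw [← pow_two, h2] : e * e = 1),
        ← e6, e3, mul_assoc (z ^ l), mul_assoc (z ^ l), ← mul_assoc (c ^ k * e), (cz _).eq,
        ← mul_assoc (z ^ l), ← mul_assoc (z ^ l), zl]
      group
    rcases zpow_cases z2 k with ⟨-, e7⟩ | ⟨-, e7⟩ <;> rw [e7] at e4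
    · refine (z1 ?_).elim
      have := b3 e
      rw [e3, map_mul, map_mul, map_zpow, map_zpow, b1, b2, e3, ce, ← mul_assoc, ← mul_assoc,
        mul_assoc (z ^ l), (cz _).eq, ← mul_assoc, zl, one_mul, mul_left_inj] at this
      rw [← this, ← e4, one_mul]
    · rw [← mul_assoc, mul_eq_one_iff_eq_inv, ← eq_inv_mul_iff_mul_eq] at e4
      exact e4 ▸ mul_mem (inv_mem (zpow_mem (mem_zpowers c) k)) (inv_mem (zpow_mem (mem_zpowers c) k))
  have key : ∀ n : ℕ, ∀ i j : ℤ, i.natAbs + j.natAbs = n → z ∈ zpowers (x ^ i * c ^ j) →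
      IsMetacyclic G := by
    intro n
    induction n using Nat.strong_induction_on with | _ n ih => ?_
    intro i j hn hz
    rcases Int.even_or_odd' i with ⟨i, rfl | rfl⟩
    swap; · exact m1 _ _ (Or.inl ⟨i, rfl⟩) hz
    rcases Int.even_or_odd' j with ⟨j, rfl | rfl⟩
    swap; · exact m1 _ _ (Or.inr ⟨j, rfl⟩) hz
    rw [sq] at hz
    rcases zpow_cases z2 (i * j) with ⟨-, e⟩ | ⟨o, e⟩ <;> rw [e] at hz
    · refine ih _ ?_ i j rfl (zpowers_le.2 (by simpa using pow_mem (mem_zpowers _) 2) hz)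
      by_contra e2
      obtain ⟨rfl, rfl⟩ : i = 0 ∧ j = 0 := by omega
      exact z1 (by simpa using hz)
    obtain ⟨k, hk⟩ := hz
    dsimp only at hk
    rw [(show Commute _ z from z3 _).mul_zpow] at hk
    rcases zpow_cases z2 k with ⟨-, e7⟩ | ⟨o', e7⟩ <;> rw [e7] at hk
    · exact m1 i j (Or.inl (Int.odd_mul.1 o).1)
        (hk ▸ mul_mem (zpow_mem (pow_mem (mem_zpowers _) 2) k) (one_mem _))
    · simpa using m1 0 1 (Or.inr odd_one) (by
        simpa using odd i j (Int.odd_mul.1 o).1 (Int.odd_mul.1 o).2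
          (mem_bot.1 (mem_of_odd hG o' (mem_bot.2 (by simpa using hk)))))
  obtain ⟨i, j, e⟩ := h z
  exact key _ i j rfl (e ▸ mem_zpowers z)

theorem Bi.sub {x y : G} (h : Bi x y) {M : Subgroup G} (hM : M.index = 2) (hx : x ∈ M) :
    ∃ hy : y * y ∈ M, y ∉ M ∧ Bi (⟨x, hx⟩ : M) ⟨y * y, hy⟩ := by
  have hy : y ∉ M := fun hy => by
    have : M = ⊤ := eq_top_iff.2 fun g _ => by
      obtain ⟨i, j, rfl⟩ := h g
      exact mul_mem (zpow_mem hx i) (zpow_mem hy j)
    simp [this] at hM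
  refine ⟨mul_self_mem_of_index_two hM y, hy, fun g => ?_⟩
  obtain ⟨i, j, e⟩ := h g
  rcases Int.even_or_odd' j with ⟨j, rfl | rfl⟩
  · exact ⟨i, j, Subtype.ext (by rw [e, zpow_mul, zpow_two]; simp)⟩
  · have := g.2
    rw [e, zpow_add, zpow_one, ← mul_assoc, zpow_mul, zpow_two, mul_mem_cancel_left (mul_mem (zpow_mem hx i)
      (zpow_mem (mul_self_mem_of_index_two hM y) j))] at this
    exact (hy this).elim

theorem janko (R : Type u) [Group R] [Finite R] : IsPGroup 2 R → ∀ x y : R, Bi x y →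
    ∀ M : Subgroup R, M.index = 2 → x ∈ M → IsMetacyclic M := by
  refine Grp.card_induction (P := fun R _ _ => IsPGroup 2 R → ∀ x y : R, Bi x y →
    ∀ M : Subgroup R, M.index = 2 → x ∈ M → IsMetacyclic M) ?_ R
  intro R _ _ ih hR x y h M hM hx
  haveI := normal_of_index_eq_two hM
  obtain ⟨hy, -, hb⟩ := h.sub hM hx
  have hP := hR.to_subgroup M
  by_cases h1 : commutator M = ⊥
  · refine isMetacyclic_iff.2 ⟨⟨x, hx⟩, ⟨_, hy⟩, Normal.of_commutator_le _ (h1 ▸ bot_le),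
      eq_top_iff.2 fun g _ => ?_⟩
    obtain ⟨i, j, rfl⟩ := hb g
    exact mul_mem_sup (zpow_mem (mem_zpowers _) i) (zpow_mem (mem_zpowers _) j)
  by_cases hc : Nat.card (commutator M) ≤ 2
  · have hc2 : Nat.card (commutator M) = 2 := le_antisymm hc ((one_lt_card_iff_ne_bot _).2 h1)
    obtain ⟨z, z1, hz⟩ := (Nat.card_eq_two_iff' (1 : commutator M)).1 hc2
    have z0 : (z : M) ≠ 1 := fun e => z1 (Subtype.ext e)
    have hz' : ∀ w ∈ commutator M, w = 1 ∨ w = z := fun w hw => or_iff_not_imp_left.2 fun e =>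
      congrArg Subtype.val (hz ⟨w, hw⟩ fun e1 => e (congrArg Subtype.val e1))
    have fx : ∀ β : M ≃* M, β z = z := fun β => (hz' _ (by
      have := characteristic_iff_map_le.1 (inferInstance : (commutator M).Characteristic) β
      exact this ⟨z, z.2, rfl⟩)).resolve_left (by simpa using z0)
    refine base hP hb z0 ((hz' _ (mul_mem z.2 z.2)).resolve_right (by simpa using z0))
      (fun g => mul_inv_eq_iff_eq_mul.1 (fx (MulAut.conj g)))
      (fun a b => hz' _ (commutator_mem_commutator (mem_top a) (mem_top b))) (MulAut.conjNormal y)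
      (Subtype.ext ?_) (fx _) fun g => Subtype.ext ?_
    · simp [← mul_assoc]
    · simp [mul_assoc]
  set N : Subgroup M := closure {y | ∃ x ∈ commutator M, y = x ^ 2} with hN
  haveI : N.Characteristic := characteristic_iff_map_le.2 fun β => by
    rw [hN, MonoidHom.map_closure, closure_le]
    rintro _ ⟨_, ⟨x, hx, rfl⟩, rfl⟩
    exact subset_closure ⟨β x, characteristic_iff_map_le.1 inferInstance β ⟨x, hx, rfl⟩, by simp⟩
  obtain ⟨T, hTn, hTc, hTM, hT⟩ : ∃ T : Subgroup R, T.Normal ∧ Nat.card T = 2 ∧ T ≤ M ∧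
      (N ≠ ⊥ → T ≤ N.map M.subtype) := by
    by_cases h : N = ⊥
    · obtain ⟨T, h1, h3, h2⟩ := Grp.PChain.exists_normal_le_card hR M 1
        (by simpa using (not_le.mp hc).le.trans (card_le_card_group _))
      exact ⟨T, h1, by simpa using h2, h3, fun h' => absurd h h'⟩
    · obtain ⟨T, h1, h3, h2⟩ := Grp.PChain.exists_normal_le_card hR (N.map M.subtype) 1
        (by rw [card_map_of_injective M.subtype_injective]; exact (one_lt_card_iff_ne_bot _).2 h)
      exact ⟨T, h1, by simpa using h2, h3.trans (map_subtype_le _), fun _ => h3⟩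
  have hm := ih (R ⧸ T) (Grp.card_quotient_lt T (by rintro rfl; simp at hTc)) (hR.to_quotient T) _ _
    (h.map _ (QuotientGroup.mk'_surjective T)) (M.map (QuotientGroup.mk' T))
    (by rw [index_map_eq _ (QuotientGroup.mk'_surjective T) (by simpa using hTM), hM]) ⟨x, hx, rfl⟩
  refine Fus.MC.isMetacyclic_of_quot (T := T.subgroupOf M) hP hc
    (by rw [Nat.card_congr (subgroupOfEquivOfLe hTM).toEquiv, hTc]) (fun e t ht => ?_) ?_
  · obtain ⟨s, hs, e1⟩ := hT e ht
    exact (Subtype.ext e1 : s = t) ▸ hs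
  · refine isMetacyclic_of_injective (QuotientGroup.lift _ ((QuotientGroup.mk' T).subgroupMap M)
      fun t ht => Subtype.ext ((QuotientGroup.eq_one_iff _).2 ht)) ?_ hm
    rw [injective_iff_map_eq_one]
    intro a ha
    obtain ⟨a, rfl⟩ := QuotientGroup.mk_surjective a
    exact (QuotientGroup.eq_one_iff _).2 ((QuotientGroup.eq_one_iff (N := T) _).1
      (congrArg Subtype.val ha))

theorem Bi.le_of_index {x y : G} (h : Bi x y) {M N : Subgroup G} (hM : M.index = 2) (hN : N.index = 2)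
    (h1 : x ∉ M) (h2 : y ∉ M) (h3 : x ∉ N) (h4 : y ∉ N) : M ≤ N := fun g hg => by
  let L : Subgroup G :=
    { carrier := {g | g ∈ M ↔ g ∈ N}
      one_mem' := by simp
      mul_mem' := fun {a b} ha hb => by
        simp only [Set.mem_setOf_eq, mul_mem_iff_of_index_two hM, mul_mem_iff_of_index_two hN] at *
        rw [ha, hb]
      inv_mem' := fun ha => by simpa using ha }
  obtain ⟨i, j, rfl⟩ := h g
  exact (mul_mem (zpow_mem (show x ∈ L from iff_of_false h1 h3) i)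
    (zpow_mem (show y ∈ L from iff_of_false h2 h4) j)).1 hg

/-- All non-metacyclic proper subgroups lie in one maximal subgroup. -/
theorem Bi.exists_max [Finite G] (hG : IsPGroup 2 G) {x y : G} (h : Bi x y) {E : Subgroup G}
    (hE : E ≠ ⊤) (hm : ¬ IsMetacyclic E) : ∃ M : Subgroup G, M.index = 2 ∧ x ∉ M ∧ y ∉ M ∧
      ∀ T : Subgroup G, T ≠ ⊤ → IsMetacyclic T ∨ T ≤ M := by
  have key : ∀ T : Subgroup G, T ≠ ⊤ → ¬ IsMetacyclic T → ∃ M : Subgroup G, M.index = 2 ∧ x ∉ M ∧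
      y ∉ M ∧ T ≤ M := fun T h1 h2 => by
    obtain ⟨M, hM, hle⟩ := (eq_top_or_exists_le_coatom T).resolve_left h1
    have hi := Grp.PFrattini.index_of_isCoatom hG hM
    exact ⟨M, hi, fun e => h2 (isMetacyclic_of_le hle (janko G hG x y h M hi e)),
      fun e => h2 (isMetacyclic_of_le hle (janko G hG y x h.symm M hi e)), hle⟩
  obtain ⟨M, h1, h2, h3, -⟩ := key E hE hm
  refine ⟨M, h1, h2, h3, fun T hT => or_iff_not_imp_left.2 fun e => ?_⟩
  obtain ⟨N, k1, k2, k3, k4⟩ := key T hT e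
  exact k4.trans (h.le_of_index k1 h1 k2 k3 h2 h3)

end Cfsg.Agent.Bicyc
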