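import Mathlib
import Cfsg.Agent.Fus.LocSat
import Cfsg.Agent.Fus.GroupFus

/-!
The fusion system generated by the inner system and one group of automorphisms of a subgroup `Q`;
a saturation criterion (Broto, Levi, Oliver).
-/

set_option autoImplicit false

namespace Cfsg.Agent.Bicyc

open Cfsg Cfsg.FusionSystem Cfsg.Agent.Fus

variable {Ω : Type*} [Group Ω] {S Q P : Subgroup Ω} {Δ : Subgroup (MulAut Q)} {f : Ω → Ω}

/-- The system of all injective homomorphisms. -/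
def univSys (S : Subgroup Ω) : FusionSystem S :=
  ofPred S (fun P f => HomOn P f ∧ P ≤ S ∧ (∀ x ∈ P, f x ∈ S) ∧ Set.InjOn f P)
    (fun _ _ h => h.2)
    (fun _ _ _ h e => ⟨h.1.congr e, h.2.1, fun x hx => e x hx ▸ h.2.2.1 x hx,
      fun x hx y hy e' => h.2.2.2 hx hy (by rw [e x hx, e y hy, e'])⟩)
    (fun P g hP hg => ⟨homOn_conj P g, hP, fun x hx => mul_mem (mul_mem hg (hP hx)) (inv_mem hg),
      fun x _ y _ e => by simpa using e⟩)
    (fun _ _ _ _ _ _ hf hg hm => ⟨hg.1.comp hf.1 hm, hf.2.1, fun x hx => hg.2.2.1 _ (hm x hx),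
      fun x hx y hy e => hf.2.2.2 hx hy (hg.2.2.2 (hm x hx) (hm y hy) e)⟩)
    (fun P f hf h => by
      obtain ⟨e, he⟩ := hf.exists_mulEquiv h.2.2.2 rfl
      have h1 := homOn_fn (P.subtype.comp e.symm.toMonoidHom)
      refine ⟨_, h1, ⟨h1, img_le_iff.2 h.2.2.1, fun x hx => ?_, fun x hx y hy e' => ?_⟩,
        fun x hx => ?_⟩
      · rw [fn_apply _ hx]; exact h.2.1 (e.symm ⟨x, hx⟩).2
      · rw [fn_apply _ hx, fn_apply _ hy] at e'
        exact congrArg Subtype.val (e.symm.injective (Subtype.ext e'))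
      · rw [fn_apply _ (mem_img_of_mem f hx)]
        have : (⟨f x, mem_img_of_mem f hx⟩ : img P f) = e ⟨x, hx⟩ := Subtype.ext (he ⟨x, hx⟩).symm
        rw [this]
        simp)

theorem isMap_univ_afn (hQ : Q ≤ S) (α : MulAut Q) : IsMap (univSys S) Q (afn α) :=
  isMap_ofPred.2 ⟨homOn_afn α, homOn_afn α, hQ, fun _ hx => hQ (afn_mem α hx), afn_injOn α⟩

/-- The generating maps. -/
def Stp (S Q : Subgroup Ω) (Δ : Subgroup (MulAut Q)) (R : Subgroup Ω) (g : Ω → Ω) : Prop :=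
  (R = S ∧ ∃ s ∈ S, g = fun x => s * x * s⁻¹) ∨ (R = Q ∧ ∃ α ∈ Δ, g = afn α)

/-- The system generated by the inner system of `S` and `Δ`. -/
def blo (S Q : Subgroup Ω) (Δ : Subgroup (MulAut Q)) : FusionSystem S :=
  ofPred S (AChain (univSys S) (Stp S Q Δ))
    (fun _ _ h => ⟨h.isMap.le, fun _ hx => h.isMap.mem hx, h.isMap.injOn⟩)
    (fun _ _ _ h e => h.congr e)
    (fun _ g hP hg => AChain.of_map (Or.inl ⟨rfl, g, hg, rfl⟩) (isMap_conj _ le_rfl hg) hP)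
    (fun _ _ _ _ _ _ hf hg hm => hg.comp hf hm)
    (fun _ _ _ h => by
      obtain ⟨g, h1, h2, -⟩ := h.isMap.exists_inv
      refine ⟨g, h1.homOn, h.inv (fun R g hg _ => ?_) g h2, h2⟩
      rcases hg with ⟨rfl, s, hs, rfl⟩ | ⟨rfl, α, hα, rfl⟩
      · refine ⟨fun x => s⁻¹ * x * s⁻¹⁻¹, .inl ⟨img_conj_eq_self (le_normalizerIn le_rfl hs), _,
          inv_mem hs, rfl⟩, fun x _ => by group⟩
      · exact ⟨_, .inr ⟨img_afn α, _, inv_mem hα, rfl⟩, fun x hx => afn_inv_afn α hx⟩)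

theorem isMap_blo : IsMap (blo S Q Δ) P f ↔ AChain (univSys S) (Stp S Q Δ) P f :=
  isMap_ofPred.trans ⟨fun h => h.2, fun h => ⟨h.isMap.homOn, h⟩⟩

theorem isMap_blo_afn (hQ : Q ≤ S) {α : MulAut Q} (hα : α ∈ Δ) : IsMap (blo S Q Δ) Q (afn α) :=
  isMap_blo.2 (AChain.of_map (.inr ⟨rfl, α, hα, rfl⟩) (isMap_univ_afn hQ α) le_rfl)

variable [Finite S]

theorem blo_form (hQ : Q ≤ S) (hT : autInducedBy S Q ≤ Δ) (h : IsMap (blo S Q Δ) P f) :
    (∃ s ∈ S, ∀ x ∈ P, f x = s * x * s⁻¹) ∨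
    (∃ s ∈ S, (∀ x ∈ P, s * x * s⁻¹ ∈ Q) ∧ ¬ ∀ y ∈ Q, s⁻¹ * y * s ∈ P) ∨
    ∃ s ∈ S, ∃ t ∈ S, ∃ α ∈ Δ, (∀ x ∈ P, s * x * s⁻¹ ∈ Q) ∧ (∀ y ∈ Q, s⁻¹ * y * s ∈ P) ∧
      ∀ x ∈ P, f x = t * afn α (s * x * s⁻¹) * t⁻¹ := by
  have := finite_of_le hQ
  rw [isMap_blo] at h
  induction h with
  | id _ e => exact .inl ⟨1, one_mem _, fun x hx => by simp [e x hx]⟩
  | @step f g h R h1 h2 h3 h5 e ih =>
    rcases h2 with ⟨rfl, u, hu, rfl⟩ | ⟨rfl, β, hβ, rfl⟩
    · rcases ih with ⟨s, hs, e'⟩ | ih | ⟨s, hs, t, ht, α, hα, a1, a2, e'⟩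
      · exact .inl ⟨u * s, mul_mem hu hs, fun x hx => by rw [e x hx, e' x hx]; group⟩
      · exact .inr (.inl ih)
      · exact .inr (.inr ⟨s, hs, u * t, mul_mem hu ht, α, hα, a1, a2, fun x hx => by
          rw [e x hx, e' x hx]; group⟩)
    · rcases ih with ⟨s, hs, e'⟩ | ih | ⟨s, hs, t, ht, α, hα, a1, a2, e'⟩
      · have a1 : ∀ x ∈ P, s * x * s⁻¹ ∈ R := fun x hx => e' x hx ▸ h5 x hx
        by_cases a2 : ∀ y ∈ R, s⁻¹ * y * s ∈ P
        · exact .inr (.inr ⟨s, hs, 1, one_mem _, β, hβ, a1, a2, fun x hx => by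
            rw [e x hx, e' x hx]; simp⟩)
        · exact .inr (.inl ⟨s, hs, a1, a2⟩)
      · exact .inr (.inl ih)
      · have hn : t ∈ normalizerIn S R := mem_normalizerIn_of_conj ht fun y hy => by
          have h6 := a2 _ (afn_mem α⁻¹ hy)
          have h7 := h5 _ h6
          rw [e' _ h6] at h7
          simpa [mul_assoc, afn_afn_inv α hy] using h7
        refine .inr (.inr ⟨s, hs, 1, one_mem _, β * conjAut R t hn.2 * α,
          mul_mem (mul_mem hβ (hT (conjAut_mem_autInducedBy hn))) hα, a1, a2, fun x hx => ?_⟩)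
        rw [e x hx, e' x hx, afn_mul _ _ (a1 x hx), afn_mul _ _ (afn_mem α (a1 x hx)),
          afn_conjAut _ (afn_mem α (a1 x hx))]
        simp

theorem card_le_of_conj_mem (hQ : Q ≤ S) {s : Ω} (h : ∀ x ∈ P, s * x * s⁻¹ ∈ Q) :
    Nat.card P ≤ Nat.card Q :=
  have := finite_of_le hQ
  card_le_of_conj s h

theorem conj_mem_of_card (hQ : Q ≤ S) {s : Ω} (h : ∀ x ∈ P, s * x * s⁻¹ ∈ Q)
    (hc : Nat.card Q ≤ Nat.card P) : ∀ y ∈ Q, s⁻¹ * y * s ∈ P := by
  have := finite_of_le hQ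
  have h1 : P.map (MulAut.conj s).toMonoidHom = Q :=
    Subgroup.eq_of_le_of_card_ge (by rintro _ ⟨x, hx, rfl⟩; exact h x hx)
      (by rwa [Subgroup.card_map_of_injective (MulEquiv.injective _)])
  intro y hy
  exact mem_map_conj_iff.1 (h1.symm ▸ hy)

theorem autGroup_blo (hQ : Q ≤ S) (hT : autInducedBy S Q ≤ Δ) : (blo S Q Δ).autGroup Q = Δ := by
  have := finite_of_le hQ
  refine le_antisymm (fun β hβ => ?_) fun α hα => (mem_autGroup hQ).2 (isMap_blo_afn hQ hα)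
  rcases blo_form hQ hT (isMap_afn hQ hβ) with ⟨s, hs, e⟩ | ⟨s, hs, a1, a2⟩ |
    ⟨s, hs, t, ht, α, hα, a1, a2, e⟩
  · exact hT (mem_autInducedBy.2 ⟨s, hs, e⟩)
  · exact (a2 (conj_mem_of_card hQ a1 le_rfl)).elim
  · have hn : s ∈ normalizerIn S Q := mem_normalizerIn_of_conj hs a1
    have hn' : t ∈ normalizerIn S Q := mem_normalizerIn_of_conj ht fun y hy => by
      have h6 := a2 _ (afn_mem α⁻¹ hy)
      have h7 := afn_mem β h6
      rw [e _ h6] at h7
      simpa [mul_assoc, afn_afn_inv α hy] using h7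
    have : β = conjAut Q t hn'.2 * α * conjAut Q s hn.2 := aut_ext fun x hx => by
      rw [afn_mul _ _ hx, afn_conjAut _ hx, afn_mul _ _ (a1 x hx),
        afn_conjAut _ (afn_mem α (a1 x hx)), e x hx]
    rw [this]
    exact mul_mem (mul_mem (hT (conjAut_mem_autInducedBy hn')) hα) (hT (conjAut_mem_autInducedBy hn))

theorem blo_top (hQ : Q < S) (hT : autInducedBy S Q ≤ Δ) (h : IsMap (blo S Q Δ) S f) :
    ∃ s ∈ S, ∀ x ∈ S, f x = s * x * s⁻¹ := by
  have key : ∀ s ∈ S, ¬ ∀ x ∈ S, s * x * s⁻¹ ∈ Q := fun s hs a1 => hQ.not_ge fun y hy => by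
    simpa [mul_assoc] using a1 _ (mul_mem (mul_mem (inv_mem hs) hy) hs)
  rcases blo_form hQ.le hT h with h | ⟨s, hs, a1, -⟩ | ⟨s, hs, t, -, α, -, a1, -⟩
  exacts [h, (key s hs a1).elim, (key s hs a1).elim]

variable {p : ℕ} [Fact p.Prime]

theorem blo_saturated (hS : IsPGroup p S) (hQ : Q < S) (hT : autInducedBy S Q ≤ Δ)
    (hsyl : SylIn p (autInducedBy S Q) Δ)
    (h3 : ∀ α ∈ Δ, ∀ g (hg : g ∈ normalizerIn S Q), α * conjAut Q g hg.2 * α⁻¹ ∈ autInducedBy S Q →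
      g ∈ Q ∨ α ∈ autInducedBy S Q)
    (h2 : ∀ P < Q, ∃ α ∈ Δ, ∃ c ∈ S, (∀ x ∈ P, afn α x * c = c * afn α x) ∧ ∀ x ∈ P, afn α x ≠ c) :
    (blo S Q Δ).IsSaturated p := by
  have := finite_of_le hQ.le
  set F := blo S Q Δ with hF
  refine saturated_of_family hS (fun P => P = S ∨ F.IsConj Q P) ?_ ?_ ?_ ?_
  · rintro P R (rfl | h) hc
    exacts [.inl (eq_of_isConj_top hc), .inr (isConj_trans h hc)]
  · rintro P (rfl | h) -
    · refine ⟨P, isConj_refl F le_rfl, fullyAutomized_iff.2 ⟨le_rfl, ?_⟩,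
        isReceptive_iff.2 ⟨le_rfl, fun R f hf hi => ?_⟩⟩
      · have : F.autGroup P = autInducedBy P P := le_antisymm (fun α hα =>
          mem_autInducedBy.2 (blo_top hQ hT (isMap_afn le_rfl hα))) (autInducedBy_le_autGroup F le_rfl)
        rw [this]
        exact sylIn_self (isPGroup_autInducedBy hS P)
      · obtain rfl := eq_of_isConj_top (isConj_symm (hi ▸ hf.isConj))
        exact ⟨f, hf.mono Nf_le, fun _ _ => rfl⟩
    · refine GoodCl.of_isConj ⟨Q, isConj_refl F hQ.le, fullyAutomized_iff.2 ⟨hQ.le, ?_⟩,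
        isReceptive_iff.2 ⟨hQ.le, fun R f hf hi => ?_⟩⟩ h
      · rwa [hF, autGroup_blo hQ.le hT]
      have hc : Nat.card R = Nat.card Q := hi ▸ hf.card_img.symm
      rcases blo_form hQ.le hT hf with ⟨s, hs, e⟩ | ⟨s, hs, a1, a2⟩ |
        ⟨s, hs, t, ht, α, hα, a1, a2, e⟩
      · exact ⟨_, isMap_conj F Nf_le hs, fun x hx => (e x hx).symm⟩
      · exact (a2 (conj_mem_of_card hQ.le a1 hc.ge)).elim
      have hn' : t ∈ normalizerIn S Q := mem_normalizerIn_of_conj ht fun y hy => by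
        have h6 := a2 _ (afn_mem α⁻¹ hy)
        have h7 : f _ ∈ Q := hi ▸ mem_img_of_mem f h6
        rw [e _ h6] at h7
        simpa [mul_assoc, afn_afn_inv α hy] using h7
      by_cases hα' : α ∈ autInducedBy S Q
      · obtain ⟨u, hu, e'⟩ := mem_autInducedBy.1 hα'
        refine ⟨_, isMap_conj F Nf_le (mul_mem (mul_mem ht hu) hs), fun x hx => ?_⟩
        rw [e x hx, e' _ (a1 x hx)]; group
      refine ⟨f, hf.mono fun g hg => ?_, fun _ _ => rfl⟩
      obtain ⟨hg, k, hk, e'⟩ := mem_Nf.1 hg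
      have hg' : s * g * s⁻¹ ∈ normalizerIn S Q :=
        mem_normalizerIn_of_conj (mul_mem (mul_mem hs hg.1) (inv_mem hs)) fun y hy => by
          have := a1 _ (conj_mem_of_mem_normalizerIn hg (a2 y hy))
          simpa [mul_assoc] using this
      refine ((h3 α hα _ hg' (mem_autInducedBy.2 ⟨t⁻¹ * k * t,
        mul_mem (mul_mem (inv_mem ht) hk) ht, fun y hy => ?_⟩)).resolve_right hα' |> a2 _ |>
          fun h => by simpa [mul_assoc] using h)
      have h6 := a2 _ (afn_mem α⁻¹ hy)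
      have h7 := e' _ h6
      rw [e _ h6, e _ (conj_mem_of_mem_normalizerIn hg h6)] at h7
      rw [afn_mul _ _ hy, afn_mul _ _ (afn_mem α⁻¹ hy), afn_conjAut _ (afn_mem α⁻¹ hy)]
      have h8 : s * (s⁻¹ * afn α⁻¹ y * s) * s⁻¹ = afn α⁻¹ y := by group
      have h9 : s * (g * (s⁻¹ * afn α⁻¹ y * s) * g⁻¹) * s⁻¹ =
        s * g * s⁻¹ * afn α⁻¹ y * (s * g * s⁻¹)⁻¹ := by group
      rw [h8, h9, afn_afn_inv α hy] at h7
      calc _ = t⁻¹ * (t * afn α (s * g * s⁻¹ * afn α⁻¹ y * (s * g * s⁻¹)⁻¹) * t⁻¹) * t := by group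
        _ = _ := by rw [h7]; group
  · intro E hE
    refine le_iff_isMap.2 fun P f hf => ?_
    have hP := hf.le
    rw [hF, isMap_blo] at hf
    induction hf with
    | id hP e => exact (isMap_id E hP).congr fun x hx => (e x hx).symm
    | @step f g h R h1 h2 h3 h5 e ih =>
      refine (IsMap.comp' ?_ ih h5).congr fun x hx => (e x hx).symm
      rcases h2 with ⟨rfl, u, hu, rfl⟩ | ⟨rfl, β, hβ, rfl⟩
      · exact isMap_conj E le_rfl hu
      · exact hom_subset_iff_isMap.1 (hE _ (.inr (isConj_refl F hQ.le))) _ (isMap_blo_afn hQ.le hβ)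
  · intro P hP hH
    have hPS := hP.1
    have hlt : P < S := lt_of_le_of_ne hPS fun e => hH (.inl e)
    have hA : F.autGroup P ≤ autInducedBy S P := fun β hβ => by
      rcases blo_form hQ.le hT (isMap_afn hPS hβ) with h | ⟨s, hs, a1, a2⟩ |
        ⟨s, hs, t, ht, α, hα, a1, a2, e⟩
      · exact mem_autInducedBy.2 h
      · have hm := isMap_conj F hPS hs
        have hl : img P (fun x => s * x * s⁻¹) < Q := lt_of_le_of_ne (img_le_iff.2 a1) fun e =>
          a2 fun y hy => by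
            obtain ⟨x, hx, rfl⟩ := hm.mem_img.1 (e.symm ▸ hy)
            simpa [mul_assoc] using hx
        obtain ⟨α, hα, c, hc, b1, b2⟩ := h2 _ hl
        have hm' := (isMap_blo_afn hQ.le hα).mono hl.le
        have := hP.2 _ (isConj_trans hm.isConj hm'.isConj) (mem_centralizerIn.2 ⟨hc, fun y hy => by
          obtain ⟨x, hx, rfl⟩ := hm'.mem_img.1 hy
          exact b1 x hx⟩)
        obtain ⟨x, hx, e⟩ := hm'.mem_img.1 this
        exact (b2 x hx e).elim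
      · refine (hH (.inr (isConj_symm (isConj_iff.2 ⟨_, isMap_conj F hPS hs, img_eq_of a1
          fun y hy => ⟨_, a2 y hy, by group⟩⟩)))).elim
    obtain ⟨g, hg, hg'⟩ := SetLike.exists_of_lt (lt_normalizerIn_of_le hS hlt le_rfl)
    refine ⟨P, isConj_refl F hPS, fun h => hg' ((conjAut_mem_inn_iff hPS (isCentric_self hP) hg).1
      (h ⟨conjAut_mem_autInducedBy hg, ?_⟩))⟩
    exact le_opAut ((isPGroup_autInducedBy hS P).to_le hA) le_rfl
      (fun α hα κ hκ => mul_mem (mul_mem hα hκ) (inv_mem hα))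
      (autInducedBy_le_autGroup F hPS (conjAut_mem_autInducedBy hg))

omit [Fact p.Prime] in
theorem blo_ne_inner (hQ : Q ≤ S) (hT : autInducedBy S Q ≤ Δ) (h : ¬ Δ ≤ autInducedBy S Q) :
    blo S Q Δ ≠ innerFusionSystem S := fun e => h (by
  rw [← autGroup_blo hQ hT, e, innerFusionSystem_eq, autGroup_ofSubgroup le_rfl hQ])

end Cfsg.Agent.Bicyc
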