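import Mathlib
import Cfsg.Agent.Bicyc.Engine

/-!
A `2`-group with a subgroup `Q = C ∘ ⟨i, j⟩` (`⟨i, j⟩` a four-group or quaternion of order eight)
of index two in its normalizer carries a saturated fusion system that is not inner.
-/

set_option autoImplicit false

namespace Cfsg.Agent.Bicyc

open Cfsg Cfsg.FusionSystem Cfsg.Agent.Fus Subgroup

variable {G : Type*} [Group G]

/-- Relations of a central product of `C` with `⟨i, j⟩`. -/
structure QR (C : Subgroup G) (i j e : G) : Prop where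
  e_mem : e ∈ C
  ee : e * e = 1
  ii : i * i = e
  jj : j * j = e
  ij : i * j * (i * j) = e
  cc : ∀ a ∈ C, ∀ b ∈ C, a * b = b * a
  ci : ∀ c ∈ C, i * c = c * i
  cj : ∀ c ∈ C, j * c = c * j

/-- The group generated by `C`, `i`, `j`. -/
def qx (C : Subgroup G) (i j : G) : Subgroup G := closure ((C : Set G) ∪ {i, j})

theorem le_qx (C : Subgroup G) (i j : G) : C ≤ qx C i j := fun _ h => subset_closure (.inl h)
theorem i_mem_qx (C : Subgroup G) (i j : G) : i ∈ qx C i j := subset_closure (.inr (by simp))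
theorem j_mem_qx (C : Subgroup G) (i j : G) : j ∈ qx C i j := subset_closure (.inr (by simp))

theorem qx_le {C K : Subgroup G} {i j : G} (h : C ≤ K) (hi : i ∈ K) (hj : j ∈ K) : qx C i j ≤ K :=
  (closure_le _).2 (by
    rintro x (hx | rfl | rfl)
    exacts [h hx, hi, hj])

namespace QR

variable {C : Subgroup G} {i j e : G} (h : QR C i j e)
include h

theorem jij : j * (i * j) = i := by
  have := h.ij.trans h.ii.symm
  rw [mul_assoc] at this
  exact mul_left_cancel this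

theorem ji : j * i = e * (i * j) := by
  calc j * i = j * (i * j) * j⁻¹ := by group
    _ = e * e * i * j⁻¹ := by rw [h.jij, h.ee, one_mul]
    _ = e * (i * e * j⁻¹) := by rw [h.ci e h.e_mem]; group
    _ = _ := by rw [← h.jj]; group

theorem i_inv : i⁻¹ = e * i := by
  rw [inv_eq_iff_mul_eq_one, ← mul_assoc, h.ci e h.e_mem, mul_assoc, h.ii, h.ee]

theorem j_inv : j⁻¹ = e * j := by
  rw [inv_eq_iff_mul_eq_one, ← mul_assoc, h.cj e h.e_mem, mul_assoc, h.jj, h.ee]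

theorem cij (c : G) (hc : c ∈ C) : i * j * c = c * (i * j) := by
  rw [mul_assoc, h.cj c hc, ← mul_assoc, h.ci c hc, mul_assoc]

theorem rot : QR C j (i * j) e :=
  ⟨h.e_mem, h.ee, h.jj, h.ij, by rw [h.jij, h.ii], h.cc, h.cj, h.cij⟩

theorem sub : QR (zpowers e) i j e :=
  have hle := zpowers_le.2 h.e_mem
  ⟨mem_zpowers e, h.ee, h.ii, h.jj, h.ij, fun a ha b hb => h.cc a (hle ha) b (hle hb),
    fun c hc => h.ci c (hle hc), fun c hc => h.cj c (hle hc)⟩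

theorem cases {x : G} (hx : x ∈ qx C i j) :
    ∃ c ∈ C, x = c ∨ x = c * i ∨ x = c * j ∨ x = c * (i * j) := by
  have hC : ∀ a ∈ C, ∀ y, (∃ c ∈ C, y = c ∨ y = c * i ∨ y = c * j ∨ y = c * (i * j)) →
      ∃ c ∈ C, a * y = c ∨ a * y = c * i ∨ a * y = c * j ∨ a * y = c * (i * j) := by
    rintro a ha y ⟨c, hc, hy⟩
    exact ⟨a * c, mul_mem ha hc, by simpa only [mul_assoc, mul_right_inj] using hy⟩
  have key : ∀ a ∈ (C : Set G) ∪ {i, j}, ∀ y,
      (∃ c ∈ C, y = c ∨ y = c * i ∨ y = c * j ∨ y = c * (i * j)) →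
      ∃ c ∈ C, a * y = c ∨ a * y = c * i ∨ a * y = c * j ∨ a * y = c * (i * j) := by
    rintro a (ha | rfl | rfl) y hy
    · exact hC a ha y hy
    · obtain ⟨c, hc, rfl | rfl | rfl | rfl⟩ := hy
      · exact ⟨_, hc, .inr (.inl (h.ci _ hc))⟩
      · exact ⟨_, mul_mem hc h.e_mem, .inl (by rw [← mul_assoc, h.ci _ hc, mul_assoc, h.ii])⟩
      · exact ⟨_, hc, .inr (.inr (.inr (by rw [← mul_assoc, h.ci _ hc, mul_assoc])))⟩
      · exact ⟨_, mul_mem hc h.e_mem, .inr (.inr (.inl (by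
          rw [← mul_assoc, h.ci _ hc, ← h.ii]; group)))⟩
    · obtain ⟨c, hc, rfl | rfl | rfl | rfl⟩ := hy
      · exact ⟨_, hc, .inr (.inr (.inl (h.cj _ hc)))⟩
      · exact ⟨_, mul_mem hc h.e_mem, .inr (.inr (.inr (by
          rw [← mul_assoc, h.cj _ hc, mul_assoc, h.ji, mul_assoc])))⟩
      · exact ⟨_, mul_mem hc h.e_mem, .inl (by rw [← mul_assoc, h.cj _ hc, mul_assoc, h.jj])⟩
      · exact ⟨_, hc, .inr (.inl (by rw [← mul_assoc, h.cj _ hc, mul_assoc, h.jij]))⟩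
  induction hx using closure_induction_left with
  | one => exact ⟨1, one_mem _, .inl rfl⟩
  | mul_left a ha y _ ih => exact key a ha y ih
  | inv_mul_cancel a ha y _ ih =>
    rcases ha with ha | rfl | rfl
    · exact hC _ (inv_mem ha) y ih
    · rw [h.i_inv, mul_assoc]; exact hC _ h.e_mem _ (key _ (.inr (by simp)) y ih)
    · rw [h.j_inv, mul_assoc]; exact hC _ h.e_mem _ (key _ (.inr (by simp)) y ih)

theorem comm {x c : G} (hx : x ∈ qx C i j) (hc : c ∈ C) : x * c = c * x :=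
  mem_centralizer_singleton_iff.1 (qx_le (K := centralizer {c})
    (fun a ha => mem_centralizer_singleton_iff.2 (h.cc a ha c hc))
    (mem_centralizer_singleton_iff.2 (h.ci c hc)) (mem_centralizer_singleton_iff.2 (h.cj c hc)) hx)

theorem conj_ij : i * j * i⁻¹ = e * j := by
  rw [h.i_inv, ← mul_assoc, h.cij e h.e_mem, mul_assoc, mul_assoc, h.ji, ← mul_assoc i,
    h.ci e h.e_mem, mul_assoc, ← mul_assoc i, h.ii, ← mul_assoc e e, h.ee, one_mul]

theorem conj_ji : j * i * j⁻¹ = e * i := by rw [h.ji]; group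

/-- Conjugation by an element of the product. -/
theorem conj {g : G} (hg : g ∈ qx C i j) :
    (∃ a ∈ zpowers e, g * i * g⁻¹ = a * i) ∧ ∃ a ∈ zpowers e, g * j * g⁻¹ = a * j := by
  have h1 := one_mem (zpowers e)
  have h2 := mem_zpowers e
  have k : ∀ c ∈ C, ∀ r u a, u ∈ qx C i j → a ∈ zpowers e → r * u * r⁻¹ = a * u →
      ∃ a ∈ zpowers e, c * r * u * (c * r)⁻¹ = a * u := fun c hc r u a hu ha e' => ⟨a, ha, by
    calc _ = c * (r * u * r⁻¹) * c⁻¹ := by group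
      _ = _ := by
        rw [e', ← h.comm (mul_mem (le_qx C i j (zpowers_le.2 h.e_mem ha)) hu) hc]; group⟩
  have hi := i_mem_qx C i j
  have hj := j_mem_qx C i j
  obtain ⟨c, hc, rfl | rfl | rfl | rfl⟩ := h.cases hg
  · exact ⟨by simpa using k g hc 1 i 1 hi h1 (by simp), by simpa using k g hc 1 j 1 hj h1 (by simp)⟩
  · exact ⟨k c hc i i 1 hi h1 (by simp), k c hc i j e hj h2 h.conj_ij⟩
  · exact ⟨k c hc j i e hi h2 h.conj_ji, k c hc j j 1 hj h1 (by simp)⟩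
  · refine ⟨k c hc _ i e hi h2 ?_, k c hc _ j e hj h2 ?_⟩
    · calc _ = i * (j * i * j⁻¹) * i⁻¹ := by group
        _ = _ := by rw [h.conj_ji, ← mul_assoc, h.ci e h.e_mem]; group
    · rw [← h.conj_ij]; group

theorem e_cases {a : G} (ha : a ∈ zpowers e) : a = 1 ∨ a = e := by
  obtain ⟨k, rfl⟩ := ha
  have h2 : e ^ (2 : ℤ) = 1 := by rw [zpow_two, h.ee]
  obtain ⟨m, rfl | rfl⟩ := Int.even_or_odd' k
  · exact .inl (by simp only [zpow_mul, h2, one_zpow])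
  · exact .inr (by simp only [zpow_add, zpow_mul, h2, one_zpow, zpow_one, one_mul])

theorem exists_conj {a b : G} (ha : a ∈ zpowers e) (hb : b ∈ zpowers e) :
    ∃ g ∈ qx C i j, g * i * g⁻¹ = a * i ∧ g * j * g⁻¹ = b * j := by
  have hi := i_mem_qx C i j
  have hj := j_mem_qx C i j
  rcases h.e_cases ha with rfl | rfl <;> rcases h.e_cases hb with rfl | rfl
  · exact ⟨1, one_mem _, by simp, by simp⟩
  · exact ⟨i, hi, by simp, h.conj_ij⟩
  · exact ⟨j, hj, h.conj_ji, by simp⟩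
  · refine ⟨i * j, mul_mem hi hj, ?_, by rw [← h.conj_ij]; group⟩
    calc _ = i * (j * i * j⁻¹) * i⁻¹ := by group
      _ = _ := by rw [h.conj_ji, ← mul_assoc, h.ci _ h.e_mem]; group

omit h in
theorem ext {f g : G → G} (hf : HomOn (qx C i j) f) (hg : HomOn (qx C i j) g)
    (h1 : ∀ c ∈ C, f c = g c) (h2 : f i = g i) (h3 : f j = g j) : ∀ x ∈ qx C i j, f x = g x := by
  intro x hx
  induction hx using closure_induction with
  | mem a ha =>
    rcases ha with ha | rfl | rfl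
    exacts [h1 a ha, h2, h3]
  | one => rw [hf.map_one, hg.map_one]
  | mul a b ha hb iha ihb => rw [hf.map_mul ha hb, hg.map_mul ha hb, iha, ihb]
  | inv a ha ih => rw [hf.map_inv ha, hg.map_inv ha, ih]

theorem exists_aut [Finite G] (hi : i ∉ C) (hj : j ∉ C) (hij : i * j ∉ C) :
    ∃ α : MulAut (qx C i j), (∀ c ∈ C, afn α c = c) ∧ afn α i = j ∧ afn α j = i * j := by
  let d : G →* G × G := (MonoidHom.id G).prod (MonoidHom.id G)
  have h2 : QR (C.map d) (i, j) (j, i * j) (e, e) :=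
    ⟨⟨e, h.e_mem, rfl⟩, Prod.ext h.ee h.ee, Prod.ext h.ii h.jj, Prod.ext h.jj h.ij,
      Prod.ext h.ij h.rot.ij, by
        rintro _ ⟨a, ha, rfl⟩ _ ⟨b, hb, rfl⟩; exact Prod.ext (h.cc a ha b hb) (h.cc a ha b hb), by
        rintro _ ⟨a, ha, rfl⟩; exact Prod.ext (h.ci a ha) (h.cj a ha), by
        rintro _ ⟨a, ha, rfl⟩; exact Prod.ext (h.cj a ha) (h.cij a ha)⟩
  have mi := i_mem_qx C i j
  have mj := j_mem_qx C i j
  set Γ := qx (C.map d) (i, j) (j, i * j) with hΓ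
  have l1 : Γ ≤ (qx C i j).comap (MonoidHom.fst G G) :=
    qx_le (by rintro _ ⟨a, ha, rfl⟩; exact le_qx C i j ha) mi mj
  have l2 : Γ ≤ (qx C i j).comap (MonoidHom.snd G G) :=
    qx_le (by rintro _ ⟨a, ha, rfl⟩; exact le_qx C i j ha) mj (mul_mem mi mj)
  let φ₁ : Γ →* qx C i j := ((MonoidHom.fst G G).comp Γ.subtype).codRestrict _ fun x => l1 x.2
  let φ₂ : Γ →* qx C i j := ((MonoidHom.snd G G).comp Γ.subtype).codRestrict _ fun x => l2 x.2
  have nc : ∀ c ∈ C, ∀ r, r ∉ C → c * r ≠ 1 := fun c hc r hr e' =>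
    hr (by rw [eq_inv_of_mul_eq_one_right e']; exact inv_mem hc)
  have i1 : Function.Injective φ₁ := (injective_iff_map_eq_one _).2 fun x hx => by
    have hx' : (x : G × G).1 = 1 := congrArg Subtype.val hx
    obtain ⟨_, ⟨c, hc, rfl⟩, e' | e' | e' | e'⟩ := h2.cases x.2 <;> rw [e'] at hx'
    · exact Subtype.ext (e'.trans (Prod.ext hx' hx'))
    exacts [(nc c hc _ hi hx').elim, (nc c hc _ hj hx').elim, (nc c hc _ hij hx').elim]
  have i2 : Function.Injective φ₂ := (injective_iff_map_eq_one _).2 fun x hx => by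
    have hx' : (x : G × G).2 = 1 := congrArg Subtype.val hx
    obtain ⟨_, ⟨c, hc, rfl⟩, e' | e' | e' | e'⟩ := h2.cases x.2 <;> rw [e'] at hx'
    · exact Subtype.ext (e'.trans (Prod.ext hx' hx'))
    exacts [(nc c hc _ hj hx').elim, (nc c hc _ hij hx').elim,
      (nc c hc _ (by rwa [← h.jij] at hi) hx').elim]
  have mc : ∀ c ∈ C, (c, c) ∈ Γ := fun c hc => le_qx _ _ _ ⟨c, hc, rfl⟩
  have s1 : Function.Surjective φ₁ := fun x => by
    have : qx C i j ≤ Γ.map (MonoidHom.fst G G) := qx_le (fun c hc => ⟨_, mc c hc, rfl⟩)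
      ⟨_, i_mem_qx _ _ _, rfl⟩ ⟨_, j_mem_qx _ _ _, rfl⟩
    obtain ⟨y, hy, e'⟩ := this x.2
    exact ⟨⟨y, hy⟩, Subtype.ext e'⟩
  let e₁ := MulEquiv.ofBijective φ₁ ⟨i1, s1⟩
  let e₂ := MulEquiv.ofBijective φ₂ (i2.bijective_of_nat_card_le (Nat.card_congr e₁.toEquiv).ge)
  have key : ∀ x y, (x, y) ∈ Γ → afn (e₁.symm.trans e₂) x = y := fun x y hxy => by
    have hx : x ∈ qx C i j := l1 hxy
    rw [afn_apply _ hx]
    have : e₁.symm ⟨x, hx⟩ = ⟨(x, y), hxy⟩ := e₁.symm_apply_eq.2 rfl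
    exact congrArg (fun u => ((e₂ u : qx C i j) : G)) this
  exact ⟨e₁.symm.trans e₂, fun c hc => key _ _ (mc c hc), key _ _ (i_mem_qx _ _ _),
    key _ _ (j_mem_qx _ _ _)⟩

end QR

/-- Automorphisms fixing `C` elementwise. -/
def fixC (Q C : Subgroup G) (h : C ≤ Q) : Subgroup (MulAut Q) where
  carrier := {β | ∀ c ∈ C, afn β c = c}
  one_mem' := fun c _ => afn_one c
  mul_mem' := fun {a b} ha hb c hc => by rw [afn_mul _ _ (h hc), hb c hc, ha c hc]
  inv_mem' := fun {a} ha c hc => by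
    conv_lhs => rw [← ha c hc]
    exact afn_inv_afn a (h hc)

theorem exists_noninner [Finite G] (hG : IsPGroup 2 G) {C : Subgroup G} {i j e s : G}
    (h : QR C i j e) (hi : i ∉ C) (hj : j ∉ C) (hij : i * j ∉ C) (cs : ∀ c ∈ C, s * c = c * s)
    (si : s * i = i * s) (sj : ∃ a ∈ zpowers e, s * j * s⁻¹ = a * (i * j))
    (hN : ∀ g, (∀ x ∈ qx C i j, g * x * g⁻¹ ∈ qx C i j) → g ∈ qx C i j ∨ s⁻¹ * g ∈ qx C i j) :
    ∃ F : FusionSystem (⊤ : Subgroup G), F.IsSaturated 2 ∧ F ≠ innerFusionSystem ⊤ := by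
  obtain ⟨a₀, ha₀, sj⟩ := sj
  set Q := qx C i j with hQ
  obtain ⟨α, a1, a2, a3⟩ : ∃ α : MulAut Q, (∀ c ∈ C, afn α c = c) ∧ afn α i = j ∧
    afn α j = i * j := h.exists_aut hi hj hij
  set R := qx (zpowers e) i j with hR
  have mi : i ∈ Q := i_mem_qx C i j
  have mj : j ∈ Q := j_mem_qx C i j
  have hCQ : C ≤ Q := le_qx C i j
  have hE : zpowers e ≤ C := zpowers_le.2 h.e_mem
  have hER : zpowers e ≤ R := le_qx _ i j
  have ri : i ∈ R := i_mem_qx _ i j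
  have rj : j ∈ R := j_mem_qx _ i j
  have hRQ : R ≤ Q := qx_le (hE.trans hCQ) mi mj
  have a4 : afn α (i * j) = i := by rw [afn_map_mul _ mi mj, a2, a3, h.jij]
  set Δ := stab Q R ⊓ fixC Q C hCQ with hΔ
  set T := autInducedBy (⊤ : Subgroup G) Q with hT
  have mΔ : ∀ β : MulAut Q, (∀ c ∈ C, afn β c = c) → afn β i ∈ R → afn β j ∈ R → β ∈ Δ :=
    fun β b1 b2 b3 => ⟨mem_stab_of_maps hRQ fun x hx => (qx_le (K := (homOn_afn β).pre R)
      (fun c hc => ⟨hCQ (hE hc), by rw [b1 c (hE hc)]; exact hER hc⟩) ⟨mi, b2⟩ ⟨mj, b3⟩ hx).2, b1⟩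
  have hα : α ∈ Δ := mΔ α a1 (a2 ▸ rj) (a3 ▸ mul_mem ri rj)
  have si' : s * i * s⁻¹ = i := by rw [si]; group
  have cs' : ∀ c ∈ C, s * c * s⁻¹ = c := fun c hc => by rw [cs c hc]; group
  -- conjugation by normalizing elements
  have nf : ∀ g ∈ normalizerIn ⊤ Q, (∀ c ∈ C, g * c * g⁻¹ = c) ∧
      (∃ a ∈ zpowers e, g * i * g⁻¹ = a * i) ∧ ((g ∈ Q ∧ ∃ a ∈ zpowers e, g * j * g⁻¹ = a * j) ∨
        ∃ a ∈ zpowers e, g * j * g⁻¹ = a * (i * j)) := fun g hg => by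
    rcases hN g fun x hx => conj_mem_of_mem_normalizerIn hg hx with hg' | hg'
    · exact ⟨fun c hc => by rw [h.comm hg' hc]; group, (h.conj hg').1, .inl ⟨hg', (h.conj hg').2⟩⟩
    obtain ⟨q, rfl⟩ : ∃ q, g = s * q := ⟨s⁻¹ * g, by group⟩
    rw [inv_mul_cancel_left] at hg'
    obtain ⟨⟨a, ha, e1⟩, b, hb, e2⟩ := h.conj hg'
    refine ⟨fun c hc => ?_, ⟨a, ha, ?_⟩, .inr ⟨b * a₀, mul_mem hb ha₀, ?_⟩⟩
    · calc _ = s * (q * c) * q⁻¹ * s⁻¹ := by group
        _ = s * c * s⁻¹ := by rw [h.comm hg' hc]; group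
        _ = _ := cs' c hc
    · calc _ = s * (q * i * q⁻¹) * s⁻¹ := by group
        _ = s * a * s⁻¹ * (s * i * s⁻¹) := by rw [e1]; group
        _ = _ := by rw [cs' a (hE ha), si']
    · calc _ = s * (q * j * q⁻¹) * s⁻¹ := by group
        _ = s * b * s⁻¹ * (s * j * s⁻¹) := by rw [e2]; group
        _ = _ := by rw [cs' b (hE hb), sj, mul_assoc]
  have hTΔ : T ≤ Δ := fun β hβ => by
    obtain ⟨g, hg, e'⟩ := mem_autInducedBy'.1 hβ
    obtain ⟨b1, ⟨a, ha, b2⟩, b3⟩ := nf g hg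
    refine mΔ β (fun c hc => (e' c (hCQ hc)).trans (b1 c hc))
      (by rw [e' i mi, b2]; exact mul_mem (hER ha) ri) ?_
    rw [e' j mj]
    rcases b3 with ⟨-, b, hb, b3⟩ | ⟨b, hb, b3⟩ <;> rw [b3]
    exacts [mul_mem (hER hb) rj, mul_mem (hER hb) (mul_mem ri rj)]
  have fx : ∀ β ∈ Δ, ∀ c ∈ C, ∀ x ∈ Q, afn β (c * x) = c * afn β x := fun β hβ c hc x hx => by
    rw [afn_map_mul _ (hCQ hc) hx, hβ.2 c hc]
  have nC : ∀ β ∈ Δ, ∀ x ∈ Q, afn β x ∈ C → x ∈ C := fun β hβ x hx hc => by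
    rwa [afn_injOn β hx (hCQ hc) (hβ.2 _ hc).symm]
  have mR : ∀ β ∈ Δ, ∀ x ∈ R, afn β x ∈ R := fun β hβ x hx => (mem_stab.1 hβ.1 x (hRQ hx)).2 hx
  have K1 : ∀ β ∈ Δ, ∀ a ∈ zpowers e, afn β i = a * i → β ∈ T := fun β hβ a ha e1 => by
    have k : ∀ g, (∀ c ∈ C, g * c * g⁻¹ = c) → afn β i = g * i * g⁻¹ → afn β j = g * j * g⁻¹ →
        β ∈ T := fun g b1 b2 b3 => mem_autInducedBy.2 ⟨g, trivial,
      QR.ext (homOn_afn β) (homOn_conj _ g) (fun c hc => (hβ.2 c hc).trans (b1 c hc).symm) b2 b3⟩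
    obtain ⟨b, hb, e2 | e2 | e2 | e2⟩ := h.sub.cases (mR β hβ j rj)
    · exact (hj (nC β hβ j mj (e2 ▸ hE hb))).elim
    · refine (hij (nC β hβ _ (mul_mem mi mj) ?_)).elim
      rw [afn_map_mul _ mi mj, e1, e2, mul_assoc, ← mul_assoc i, h.ci b (hE hb), mul_assoc, h.ii]
      exact mul_mem (hE ha) (mul_mem (hE hb) h.e_mem)
    · obtain ⟨g, hg, b1, b2⟩ := h.exists_conj ha hb
      exact k g (fun c hc => by rw [h.comm hg hc]; group) (e1.trans b1.symm) (e2.trans b2.symm)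
    · obtain ⟨g, hg, b1, b2⟩ := h.exists_conj ha (mul_mem hb (inv_mem ha₀))
      refine k (s * g) (fun c hc => ?_) (e1.trans (Eq.symm ?_)) (e2.trans (Eq.symm ?_))
      · calc _ = s * (g * c) * g⁻¹ * s⁻¹ := by group
          _ = s * c * s⁻¹ := by rw [h.comm hg hc]; group
          _ = _ := cs' c hc
      · calc _ = s * (g * i * g⁻¹) * s⁻¹ := by group
          _ = s * a * s⁻¹ * (s * i * s⁻¹) := by rw [b1]; group
          _ = _ := by rw [cs' a (hE ha), si']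
      · calc _ = s * (g * j * g⁻¹) * s⁻¹ := by group
          _ = s * (b * a₀⁻¹) * s⁻¹ * (s * j * s⁻¹) := by rw [b2]; group
          _ = _ := by rw [cs' _ (hE (mul_mem hb (inv_mem ha₀))), sj]; group
  have K2 : ∀ β ∈ Δ, β ∈ T ∨ α * β ∈ T ∨ α * α * β ∈ T := fun β hβ => by
    obtain ⟨b, hb, e2 | e2 | e2 | e2⟩ := h.sub.cases (mR β hβ i ri)
    · exact (hi (nC β hβ i mi (e2 ▸ hE hb))).elim
    · exact .inl (K1 β hβ b hb e2)
    · refine .inr (.inr (K1 _ (mul_mem (mul_mem hα hα) hβ) b hb ?_))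
      rw [afn_mul _ _ mi, e2, fx _ (mul_mem hα hα) b (hE hb) j mj, afn_mul _ _ mj, a3, a4]
    · refine .inr (.inl (K1 _ (mul_mem hα hβ) b hb ?_))
      rw [afn_mul _ _ mi, e2, fx _ hα b (hE hb) _ (mul_mem mi mj), a4]
  have α3 : α * α * α = 1 := aut_ext (QR.ext (homOn_afn _) (homOn_afn _)
    (fun c hc => by rw [(mul_mem (mul_mem hα hα) hα).2 c hc, afn_one])
    (by rw [afn_mul _ _ mi, a2, afn_mul _ _ mj, a3, a4, afn_one])
    (by rw [afn_mul _ _ mj, a3, afn_mul _ _ (mul_mem mi mj), a4, a2, afn_one]))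
  have hα' : ∀ B : Subgroup (MulAut Q), IsPGroup 2 B → α ∉ B := fun B hB hm => by
    obtain ⟨k, hk⟩ := hB ⟨α, hm⟩
    have h1 : α ^ 2 ^ k = 1 := congrArg Subtype.val hk
    have h2 : α ^ 3 = 1 := by rw [pow_succ, pow_two, α3]
    have h3 : α = 1 := by
      have := pow_gcd_eq_one.2 ⟨h1, h2⟩
      rwa [Nat.Coprime.gcd_eq_one (Nat.Coprime.pow_left k (by norm_num)), pow_one] at this
    rw [h3, afn_one] at a2
    exact hij (by rw [← a2, h.ii]; exact h.e_mem)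
  have hs : s ∉ Q := fun hs => by
    obtain ⟨b, hb, e'⟩ := (h.conj hs).2
    rw [sj, ← mul_assoc, mul_left_inj] at e'
    exact hi (by simpa [← e'] using mul_mem (inv_mem (hE ha₀)) (hE hb))
  have hS : IsPGroup 2 (⊤ : Subgroup G) := hG.to_subgroup _
  have hTp : IsPGroup 2 T := isPGroup_autInducedBy hS Q
  refine ⟨blo ⊤ Q Δ, blo_saturated hS (lt_top_iff_ne_top.2 fun e' => hs (e' ▸ trivial)) hTΔ
    (sylIn_of_max hTΔ hTp fun B hB h1 h2 β hβ => ?_) (fun β hβ g hg h1 => ?_) fun P hP => ?_,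
    blo_ne_inner le_top hTΔ fun h1 => hα' T hTp (h1 hα)⟩
  · rcases K2 β (h2 hβ) with h3 | h3 | h3
    · exact h3
    · exact (hα' B hB (by simpa using mul_mem (h1 h3) (inv_mem hβ))).elim
    · refine (hα' B hB ?_).elim
      rw [eq_inv_of_mul_eq_one_right α3]
      exact inv_mem (by simpa using mul_mem (h1 h3) (inv_mem hβ))
  · obtain ⟨b1, ⟨a, ha, b2⟩, ⟨hg', -⟩ | ⟨b, hb, b3⟩⟩ := nf g hg
    · exact .inl hg'
    obtain ⟨t, ht, e'⟩ := mem_autInducedBy'.1 h1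
    obtain ⟨-, ⟨a', ha', b4⟩, -⟩ := nf t ht
    have hβ' := inv_mem hβ
    have b5 : g * afn β⁻¹ i * g⁻¹ = a' * afn β⁻¹ i := by
      have := (e' i mi).trans b4
      rw [afn_mul _ _ mi, afn_mul _ _ (afn_mem _ mi), afn_conjAut _ (afn_mem _ mi)] at this
      rw [← fx _ hβ' a' (hE ha') i mi, ← this,
        afn_inv_afn _ (conj_mem_of_mem_normalizerIn hg (afn_mem _ mi))]
    have cm : ∀ c ∈ C, ∀ r, g * (c * r) * g⁻¹ = c * (g * r * g⁻¹) := fun c hc r => by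
      conv_rhs => rw [← b1 c hc]
      group
    obtain ⟨c, hc, e2 | e2 | e2 | e2⟩ := h.sub.cases (mR _ hβ' i ri)
    · exact (hi (nC _ hβ' i mi (e2 ▸ hE hc))).elim
    · exact .inr (by simpa using inv_mem (K1 _ hβ' c hc e2))
    · rw [e2, cm c (hE hc), b3] at b5
      refine (hi ?_).elim
      have : i = (c * b)⁻¹ * (a' * c) := by
        rw [eq_inv_mul_iff_mul_eq]
        exact mul_right_cancel (b := j) (by simpa only [mul_assoc] using b5)
      rw [this]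
      exact mul_mem (inv_mem (hE (mul_mem hc hb))) (hE (mul_mem ha' hc))
    · have b6 : g * (i * j) * g⁻¹ = a * (b * e) * j := by
        calc _ = g * i * g⁻¹ * (g * j * g⁻¹) := by group
          _ = a * (i * b) * i * j := by rw [b2, b3]; group
          _ = _ := by rw [h.ci b (hE hb), ← h.ii]; group
      rw [e2, cm c (hE hc), b6] at b5
      refine (hi ?_).elim
      have : i = (a' * c)⁻¹ * (c * (a * (b * e))) := by
        rw [eq_inv_mul_iff_mul_eq]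
        exact mul_right_cancel (b := j) (by simpa only [mul_assoc] using b5.symm)
      rw [this]
      exact mul_mem (inv_mem (hE (mul_mem ha' hc)))
        (mul_mem (hE hc) (mul_mem (hE ha) (mul_mem (hE hb) h.e_mem)))
  · by_cases hCP : C ≤ P
    swap
    · obtain ⟨c, hc, hc'⟩ := SetLike.not_le_iff_exists.1 hCP
      exact ⟨1, one_mem _, c, trivial, fun x hx => by rw [afn_one]; exact h.comm (hP.le hx) hc,
        fun x hx e' => hc' (by rwa [← e', afn_one])⟩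
    have k : ∀ β ∈ Δ, ∀ r ∈ Q, afn β r = i → (∀ x ∈ P, ∃ c ∈ C, x = c ∨ x = c * r) →
        ∃ α ∈ Δ, ∃ c ∈ (⊤ : Subgroup G), (∀ x ∈ P, afn α x * c = c * afn α x) ∧
          ∀ x ∈ P, afn α x ≠ c := fun β hβ r hr e1 hx => by
      refine ⟨β, hβ, s, trivial, fun x hx' => ?_, fun x hx' e' => hs (e' ▸ afn_mem β (hP.le hx'))⟩
      obtain ⟨c, hc, rfl | rfl⟩ := hx x hx'
      · rw [hβ.2 x hc, cs x hc]
      · rw [fx β hβ c hc r hr, e1, mul_assoc, ← si, ← mul_assoc, ← cs c hc, mul_assoc]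
    have n2 : ¬ (i ∈ P ∧ j ∈ P) := fun h2 => hP.not_ge (qx_le hCP h2.1 h2.2)
    have cp : ∀ c ∈ C, ∀ r, c * r ∈ P → r ∈ P := fun c hc r h1 => by
      simpa using mul_mem (inv_mem (hCP hc)) h1
    by_cases pj : j ∈ P
    · refine k _ (mul_mem hα hα) j mj (by rw [afn_mul _ _ mj, a3, a4]) fun x hx => ?_
      obtain ⟨c, hc, rfl | rfl | rfl | rfl⟩ := h.cases (hP.le hx)
      · exact ⟨_, hc, .inl rfl⟩
      · exact (n2 ⟨cp c hc _ hx, pj⟩).elim
      · exact ⟨_, hc, .inr rfl⟩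
      · exact (n2 ⟨by simpa using mul_mem (cp c hc _ hx) (inv_mem pj), pj⟩).elim
    by_cases pi : i ∈ P
    · refine k _ (one_mem _) i mi (afn_one _) fun x hx => ?_
      obtain ⟨c, hc, rfl | rfl | rfl | rfl⟩ := h.cases (hP.le hx)
      · exact ⟨_, hc, .inl rfl⟩
      · exact ⟨_, hc, .inr rfl⟩
      · exact (pj (cp c hc _ hx)).elim
      · exact (pj (by simpa using mul_mem (inv_mem pi) (cp c hc _ hx))).elim
    · refine k _ hα _ (mul_mem mi mj) a4 fun x hx => ?_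
      obtain ⟨c, hc, rfl | rfl | rfl | rfl⟩ := h.cases (hP.le hx)
      · exact ⟨_, hc, .inl rfl⟩
      · exact (pi (cp c hc _ hx)).elim
      · exact (pj (cp c hc _ hx)).elim
      · exact ⟨_, hc, .inr rfl⟩

end Cfsg.Agent.Bicyc
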