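import Mathlib
import Cfsg.Agent.Bicyc.Local
import Cfsg.Agent.Bicyc.Janko
import Cfsg.Agent.Grp.MetaAut
import Cfsg.Agent.Fus.AutSL2

/-!
Bicyclic nonmetacyclic `2`-groups with cyclic derived subgroup carry a saturated fusion system
that is not inner.
-/

set_option autoImplicit false

namespace Cfsg.Agent.Bicyc

open Cfsg Cfsg.FusionSystem Cfsg.Agent.Fus Subgroup Cfsg.Agent.FT.R2
open scoped commutatorElement

variable {G : Type*} [Group G]

theorem commutator_le_of_gen {N : Subgroup G} [N.Normal] {a b : G}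
    (h : zpowers a ⊔ zpowers b = ⊤) (hc : ⁅a, b⁆ ∈ N) : commutator G ≤ N := by
  have h1 : Commute (a : G ⧸ N) (b : G ⧸ N) := by
    rw [← commutatorElement_eq_one_iff_commute]
    exact (QuotientGroup.eq_one_iff ⁅a, b⁆).2 hc
  have h2 : ∀ c : G ⧸ N, Commute c a → Commute c b → ∀ g : G, Commute c g := fun c ca cb g =>
    (mem_centralizer_singleton_iff.1 (h.ge.trans (sup_le
      (c := (centralizer {c}).comap (QuotientGroup.mk' N))
      (zpowers_le.2 (mem_centralizer_singleton_iff.2 ca.symm))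
      (zpowers_le.2 (mem_centralizer_singleton_iff.2 cb.symm))) (mem_top g))).symm
  refine commutator_le.2 fun g _ k _ => (QuotientGroup.eq_one_iff _).1 ?_
  exact commutatorElement_eq_one_iff_commute.2
    (h2 (g : G ⧸ N) (h2 _ (Commute.refl _) h1 g).symm (h2 _ h1.symm (Commute.refl _) g).symm k)

theorem normal_of_le_cyclic {N K : Subgroup G} [N.Normal] (hc : IsCyclic N) [Finite G]
    (h : K ≤ N) : K.Normal := by
  refine ⟨fun k hk g => ?_⟩
  obtain ⟨c, hc⟩ := hc.exists_generator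
  obtain ⟨i, hi⟩ := hc ⟨k, h hk⟩
  obtain ⟨j, hj⟩ := hc ⟨_, ‹N.Normal›.conj_mem _ c.2 g⟩
  have e1 : (c : G) ^ i = k := congrArg Subtype.val hi
  have e2 : (c : G) ^ j = g * c * g⁻¹ := congrArg Subtype.val hj
  rw [← e1, ← conj_zpow, ← e2, ← zpow_mul, mul_comm, zpow_mul, e1]
  exact zpow_mem hk j

theorem commutator_eq_of_cyclic [Finite G] (hc : IsCyclic (commutator G)) {a b : G}
    (h : zpowers a ⊔ zpowers b = ⊤) : commutator G = zpowers ⁅a, b⁆ :=
  have hle : zpowers ⁅a, b⁆ ≤ commutator G := zpowers_le.2 (commutator_mem_commutator trivial trivial)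
  have := normal_of_le_cyclic hc hle
  le_antisymm (commutator_le_of_gen h (mem_zpowers _)) hle

theorem normal_of_commutator_le {K : Subgroup G} (h : commutator G ≤ K) : K.Normal :=
  ⟨fun k hk g => by
    have := mul_mem (h (commutator_mem_commutator (mem_top g) (mem_top k))) hk
    simpa [commutatorElement_def] using this⟩

theorem meta_of_le {a b : G} (h : zpowers a ⊔ zpowers b = ⊤) (hc : commutator G ≤ zpowers a) :
    IsMetacyclic G :=
  isMetacyclic_iff.2 ⟨a, b, normal_of_commutator_le hc, h⟩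

theorem Bi.gen {x y : G} (h : Bi x y) : zpowers x ⊔ zpowers y = ⊤ := eq_top_iff.2 fun g _ => by
  obtain ⟨i, j, rfl⟩ := h g
  exact mul_mem (mem_sup_left (zpow_mem_zpowers _ _)) (mem_sup_right (zpow_mem_zpowers _ _))

theorem eq_one_of_mem_sq (hG : IsPGroup 2 G) {K : Subgroup G} {v w : G} (hw : w ∈ K)
    {k : ℤ} (h : v = w * (v * v) ^ k) : v ∈ K := by
  refine mem_of_odd hG (k := 1 - 2 * k) ⟨-k, by ring⟩ ?_
  have : v ^ (1 - 2 * k) = w := by
    rw [zpow_sub, zpow_one, zpow_mul, zpow_two, mul_inv_eq_iff_eq_mul]; exact h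
  rwa [this]

theorem inv_unique [Finite G] (hG : IsPGroup 2 G) {v a b : G} (ha : a ∈ zpowers v)
    (hb : b ∈ zpowers v) (a1 : a ≠ 1) (b1 : b ≠ 1) (a2 : a * a = 1) (b2 : b * b = 1) : a = b := by
  obtain ⟨n, hn⟩ := hG.exists_orderOf_eq_pow v
  cases n with
  | zero => rw [pow_zero, orderOf_eq_one_iff] at hn; exact (a1 (by simpa [hn] using ha)).elim
  | succ n =>
    rw [Grp.MetaAut.eq_pow_of_sq hn ha a1 (by rwa [sq]),
      Grp.MetaAut.eq_pow_of_sq hn hb b1 (by rwa [sq])]

section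
variable [Finite G] (hG : IsPGroup 2 G) (hm : ¬ IsMetacyclic G) (hc : IsCyclic (commutator G))
include hG hm hc

theorem exists_t {x y : G} (h : Bi x y) : ∃ t b : G, zpowers t ⊔ zpowers b = ⊤ ∧
    ∃ u ∈ commutator G, t * t = u * u := by
  set v := ⁅x, y⁆ with hv
  have hv' := commutator_eq_of_cyclic hc h.gen
  rw [← hv] at hv'
  set N := zpowers (v * v) with hN
  have hle : N ≤ commutator G := hv' ▸ zpowers_le.2 (mul_mem (mem_zpowers v) (mem_zpowers v))
  have := normal_of_le_cyclic hc hle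
  set π := QuotientGroup.mk' N with hπ
  have v2 : π v * π v = 1 := (QuotientGroup.eq_one_iff (v * v)).2 (mem_zpowers _)
  have cm : ∀ a b : G, ⁅π a, π b⁆ = 1 ∨ ⁅π a, π b⁆ = π v := fun a b => by
    obtain ⟨k, hk⟩ : ⁅a, b⁆ ∈ zpowers v := hv' ▸ commutator_mem_commutator trivial trivial
    rw [← map_commutatorElement, ← hk, map_zpow]
    exact (zpow_cases v2 k).imp And.right And.right
  have key : ∀ w b : G, zpowers w ⊔ zpowers b = ⊤ → π v ∉ zpowers (π w) := by
    rintro w b hg ⟨k, hk⟩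
    refine hm (meta_of_le hg (hv' ▸ zpowers_le.2 ?_))
    obtain ⟨l, hl⟩ : (w ^ k)⁻¹ * v ∈ N := QuotientGroup.eq.1 ((map_zpow π w k).trans hk)
    exact eq_one_of_mem_sq hG (zpow_mem_zpowers w k) (k := l) (by simp only at hl; rw [hl]; group)
  have v1 : π v ≠ 1 := fun e => key x y h.gen (e ▸ one_mem _)
  have vc : ∀ a : G, π a * π v = π v * π a := fun a => by
    obtain ⟨k, hk⟩ : a * v * a⁻¹ ∈ zpowers v :=
      hv' ▸ Subgroup.Normal.conj_mem inferInstance v (hv' ▸ mem_zpowers v) a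
    have e : π a * π v * (π a)⁻¹ = π v ^ k := by simp only at hk; rw [← map_zpow, hk]; simp
    rcases zpow_cases v2 k with ⟨-, e'⟩ | ⟨-, e'⟩ <;> rw [e'] at e
    · exact (v1 (by simpa using e)).elim
    · exact mul_inv_eq_iff_eq_mul.1 e
  have sw : ∀ a b : G, ∃ c, (c = 1 ∨ c = π v) ∧ π b * π a = c * (π a * π b) := fun a b =>
    ⟨_, cm b a, by rw [commutatorElement_def]; group⟩
  have sq : ∀ a b : G, Commute (π a * π a) (π b) := fun a b => by
    obtain ⟨c, rfl | rfl, e⟩ := sw a b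
    · rw [one_mul] at e
      exact Commute.mul_left e.symm e.symm
    · refine Eq.symm ?_
      calc _ = π b * π a * π a := by group
        _ = π v * (π a * π b) * π a := by rw [e]
        _ = π v * (π a * (π b * π a)) := by group
        _ = π v * (π a * π v) * (π a * π b) := by rw [e]; group
        _ = _ := by rw [vc a, ← mul_assoc (π v), v2]; group
  by_contra hn
  have P : ∀ k : ℕ, ∃ i j : ℤ, π v = (π x ^ i) ^ 2 ^ k * (π y ^ j) ^ 2 ^ k := by
    intro k
    induction k with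
    | zero => obtain ⟨i, j, e⟩ := h v; exact ⟨i, j, by simp [e]⟩
    | succ k ih =>
      obtain ⟨i, j, e⟩ := ih
      by_cases hij : Even i ∧ Even j
      · obtain ⟨⟨i, rfl⟩, j, rfl⟩ := hij
        exact ⟨i, j, by rw [e, zpow_add, zpow_add, ← pow_two, ← pow_two, ← pow_mul,
          ← pow_mul, ← pow_succ']⟩
      exfalso
      obtain ⟨b, hb⟩ : ∃ b, zpowers (x ^ i * y ^ j) ⊔ zpowers b = ⊤ := by
        rcases not_and_or.1 hij with h1 | h1
        · refine ⟨y, eq_top_iff.2 (h.gen.ge.trans (sup_le (zpowers_le.2 (mem_of_odd hG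
            (Int.not_even_iff_odd.1 h1) ?_)) le_sup_right))⟩
          simpa using mul_mem (mem_sup_left (mem_zpowers (x ^ i * y ^ j)))
            (inv_mem (mem_sup_right (zpow_mem_zpowers y j)))
        · refine ⟨x, eq_top_iff.2 (h.gen.ge.trans (sup_le le_sup_right (zpowers_le.2 (mem_of_odd hG
            (Int.not_even_iff_odd.1 h1) ?_))))⟩
          simpa using mul_mem (inv_mem (mem_sup_right (zpow_mem_zpowers x i)))
            (mem_sup_left (mem_zpowers (x ^ i * y ^ j)))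
      rw [← map_zpow, ← map_zpow] at e
      generalize x ^ i = a, y ^ j = c at e hb
      cases k with
      | zero => exact key _ b hb (by rw [e]; simp)
      | succ k =>
        obtain ⟨d, hd, e1⟩ := sw a c
        have dc : ∀ g : G, Commute d (π g) := fun g => by
          rcases hd with rfl | rfl
          exacts [Commute.one_left _, (vc g).symm]
        have e2 : π (a * c) * π (a * c) = d * (π a * π a * (π c * π c)) := by
          rw [map_mul, mul_assoc, ← mul_assoc (π c), e1, ← mul_assoc, ← mul_assoc, ← (dc a).eq]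
          group
        have e3 : π (a * c) ^ 2 ^ (k + 1) = d ^ 2 ^ k * π v := by
          rw [pow_succ', pow_mul, pow_two, e2, Commute.mul_pow
            (((dc a).mul_right (dc a)).mul_right ((dc c).mul_right (dc c))),
            Commute.mul_pow ((sq a c).mul_right (sq a c)), e, pow_succ', pow_mul, pow_mul,
            pow_two, pow_two]
        have e4 : d ^ 2 ^ k = 1 ∨ (k = 0 ∧ d = π v) := by
          rcases hd with rfl | rfl
          · exact .inl (one_pow _)
          · cases k with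
            | zero => exact .inr ⟨rfl, rfl⟩
            | succ k => exact .inl (by rw [pow_succ', pow_mul, pow_two, v2, one_pow])
        rcases e4 with e4 | ⟨rfl, rfl⟩
        · rw [e4, one_mul] at e3
          exact key _ b hb (e3 ▸ npow_mem_zpowers _ _)
        · obtain ⟨l, hl⟩ : a * c * (a * c) ∈ N := (QuotientGroup.eq_one_iff _).1
            ((map_mul π _ _).trans (by simpa [v2, pow_two] using e3))
          refine hn ⟨a * c, b, hb, v ^ l, hv' ▸ zpow_mem_zpowers v l, ?_⟩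
          simp only at hl
          rw [← hl, (Commute.refl v).mul_zpow]
  obtain ⟨n, hn⟩ := IsPGroup.iff_card.1 hG
  obtain ⟨i, j, e⟩ := P n
  rw [← map_zpow, ← map_zpow, ← map_pow, ← map_pow, ← hn, pow_card_eq_one', pow_card_eq_one'] at e
  exact v1 (by simpa using e)

/-- Generators and relations. -/
structure Dat (t x v : G) (l : ℤ) : Prop where
  gen : zpowers t ⊔ zpowers x = ⊤
  com : commutator G = zpowers v
  xt : x * t * x⁻¹ = v⁻¹ * t
  tv : t * v * t⁻¹ = v⁻¹
  xv : x * v * x⁻¹ = v ^ (4 * l - 1)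
  sq : ∃ u ∈ zpowers v, t * t = u * u
  four : t * t * (t * t) = 1

theorem exists_dat {t b u : G} (h : zpowers t ⊔ zpowers b = ⊤) (hu : u ∈ commutator G)
    (e : t * t = u * u) : ∃ x v l, Dat t x v l := by
  set v := ⁅t, b⁆ with hv
  have hv' := commutator_eq_of_cyclic hc h
  rw [← hv] at hv'
  have cj : ∀ g : G, ∃ k : ℤ, g * v * g⁻¹ = v ^ k := fun g => by
    obtain ⟨k, hk⟩ : g * v * g⁻¹ ∈ zpowers v :=
      hv' ▸ Subgroup.Normal.conj_mem inferInstance v (hv' ▸ mem_zpowers v) g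
    exact ⟨k, hk.symm⟩
  obtain ⟨k, hk⟩ := cj t
  obtain ⟨j, hj⟩ := cj b
  rw [hv'] at hu
  obtain ⟨r, rfl⟩ := hu
  simp only at e
  have v1 : v ≠ 1 := fun e => hm (meta_of_le h (by rw [hv', e]; simp))
  obtain ⟨j, rfl⟩ : Odd j := by
    by_contra hj'
    obtain ⟨j, rfl⟩ := Int.not_odd_iff_even.1 hj'
    obtain ⟨i, hi⟩ := cj b⁻¹
    refine v1 (mem_bot.1 (eq_one_of_mem_sq hG (one_mem ⊥) (k := j * i) ?_))
    calc v = b * (b⁻¹ * v * b⁻¹⁻¹) * b⁻¹ := by group
      _ = _ := by rw [hi, ← conj_zpow, hj, ← zpow_two, ← zpow_mul, ← zpow_mul, one_mul]; ring_nf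
  rw [← zpow_add] at e
  have e1 : v ^ (k + 1) = v ^ (-(4 * r * j)) := by
    calc _ = t * v * t⁻¹ * v := by rw [hk, zpow_add_one]
      _ = t * t * (b * (t * t)⁻¹ * b⁻¹) := by rw [hv, commutatorElement_def]; group
      _ = _ := by
        rw [e, ← zpow_neg, ← conj_zpow, hj, ← zpow_mul, ← zpow_add]; ring_nf
  have e2 : v ^ (k * (r + r)) = v ^ (r + r) := by
    rw [zpow_mul, ← hk, conj_zpow, ← e]; group
  have e3 : v ^ (4 * r) = 1 := by
    refine mem_bot.1 (mem_of_odd hG (k := 2 * (r * j) + 1) ⟨_, rfl⟩ (mem_bot.2 ?_))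
    have : v ^ ((k + 1) * (r + r)) = v ^ (4 * r) := by
      rw [add_mul, zpow_add, e2, ← zpow_add]; ring_nf
    rw [zpow_mul, e1, ← zpow_mul, ← mul_inv_eq_one, ← zpow_sub, ← inv_eq_one, ← zpow_neg] at this
    rw [← zpow_mul, ← this]; ring_nf
  have tv : t * v * t⁻¹ = v⁻¹ := by
    rw [hk, eq_inv_iff_mul_eq_one, ← zpow_add_one, e1, zpow_neg, zpow_mul, e3]; simp
  have xt : b * t * b⁻¹ = v⁻¹ * t := by rw [hv, commutatorElement_def]; group
  have four : t * t * (t * t) = 1 := by rw [e, ← zpow_add, ← e3]; ring_nf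
  have sq : ∃ u ∈ zpowers v, t * t = u * u := ⟨_, zpow_mem_zpowers v r, by rw [e, zpow_add]⟩
  obtain ⟨l, rfl | rfl⟩ := Int.even_or_odd' j
  · refine ⟨b * t, v, -l, eq_top_iff.2 (h.ge.trans (sup_le le_sup_left (zpowers_le.2 ?_))), hv',
      by rw [← xt]; group, tv, ?_, sq, four⟩
    · simpa using mul_mem (mem_sup_right (mem_zpowers (b * t))) (inv_mem (mem_sup_left (mem_zpowers t)))
    · calc _ = b * (t * v * t⁻¹) * b⁻¹ := by group
        _ = (b * v * b⁻¹)⁻¹ := by rw [tv]; group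
        _ = _ := by rw [hj, ← zpow_neg]; ring_nf
  · exact ⟨b, v, l + 1, h, hv', xt, tv, by rw [hj]; ring_nf, sq, four⟩

end

namespace Dat

variable [Finite G] (hG : IsPGroup 2 G) (hm : ¬ IsMetacyclic G) {t x v : G} {l : ℤ}
  (h : Dat t x v l)
include h

omit [Finite G] in
theorem normal : (zpowers v).Normal := normal_of_commutator_le h.com.le

omit [Finite G] in
theorem tw {w : G} (hw : w ∈ zpowers v) : t * w * t⁻¹ = w⁻¹ := by
  obtain ⟨k, rfl⟩ := hw
  simp only [← conj_zpow, h.tv, inv_zpow]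

omit [Finite G] in
theorem xw {w : G} (hw : w ∈ zpowers v) : x * w * x⁻¹ = w ^ (4 * l - 1) := by
  obtain ⟨k, rfl⟩ := hw
  simp only [← conj_zpow, h.xv, ← zpow_mul, mul_comm]

omit [Finite G] in
theorem at_comm : t * (v ^ (2 * l) * (x * x)) = v ^ (2 * l) * (x * x) * t := by
  have e1 : x * x * t * (x * x)⁻¹ = v ^ (-(4 * l)) * t := by
    calc _ = x * (x * t * x⁻¹) * x⁻¹ := by group
      _ = x * (v⁻¹ * t) * x⁻¹ := by rw [h.xt]
      _ = (x * v * x⁻¹)⁻¹ * (x * t * x⁻¹) := by group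
      _ = _ := by rw [h.xv, h.xt]; group
  calc _ = t * v ^ (2 * l) * t⁻¹ * t * (x * x) := by group
    _ = v ^ (2 * l) * (v ^ (-(4 * l)) * t) * (x * x) := by
      rw [h.tw (zpow_mem_zpowers v _)]; group
    _ = _ := by rw [← e1]; group

omit [Finite G] in
theorem aw_comm {w : G} (hw : w ∈ zpowers v) (h8 : w ^ (8 : ℤ) = 1) :
    w * (v ^ (2 * l) * (x * x)) = v ^ (2 * l) * (x * x) * w := by
  have e1 : x * x * w * (x * x)⁻¹ = w := by
    calc _ = x * (x * w * x⁻¹) * x⁻¹ := by group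
      _ = (w ^ (8 : ℤ)) ^ (2 * l * l - l) * w := by
        rw [h.xw hw, ← conj_zpow, h.xw hw, ← zpow_mul, ← zpow_mul, ← zpow_add_one]; ring_nf
      _ = _ := by rw [h8]; simp
  obtain ⟨k, rfl⟩ := hw
  calc _ = v ^ (2 * l) * v ^ k * (x * x) := by group
    _ = v ^ (2 * l) * (x * x * v ^ k * (x * x)⁻¹) * (x * x) := by rw [e1]
    _ = _ := by group

omit [Finite G] in
theorem nf (g : G) : ∃ w ∈ zpowers v, ∃ r ∈ zpowers t ⊔ zpowers (v ^ (2 * l) * (x * x)),
    g = w * r ∨ g = w * r * x := by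
  have := h.normal
  set π := QuotientGroup.mk' (zpowers v) with hπ
  have pv : π v = 1 := (QuotientGroup.eq_one_iff _).2 (mem_zpowers v)
  have c : Commute (π t) (π x) := by
    have := congrArg π h.xt
    rw [map_mul, map_mul, map_mul, map_inv, map_inv, pv, inv_one, one_mul] at this
    exact (mul_inv_eq_iff_eq_mul.1 this).symm
  obtain ⟨i, j, e⟩ := AC.mem_closure_pair_of_commute c (g := π g) (h.gen.ge.trans (sup_le
    (c := (closure {π t, π x}).comap π) (zpowers_le.2 (subset_closure (by simp)))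
    (zpowers_le.2 (subset_closure (by simp)))) (mem_top g))
  have k : ∀ y, π g = π y → ∃ w ∈ zpowers v, g = w * y := fun y e =>
    ⟨g * y⁻¹, (QuotientGroup.eq_one_iff _).1 ((map_mul π _ _).trans (by simp [e])), by group⟩
  obtain ⟨m, rfl | rfl⟩ := Int.even_or_odd' j
  · obtain ⟨w, hw, e'⟩ := k (t ^ i * (v ^ (2 * l) * (x * x)) ^ m) (by
      rw [e, zpow_mul, zpow_two]; simp [pv])
    exact ⟨w, hw, _, mul_mem (mem_sup_left (zpow_mem_zpowers _ _))
      (mem_sup_right (zpow_mem_zpowers _ _)), .inl e'⟩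
  · obtain ⟨w, hw, e'⟩ := k (t ^ i * (v ^ (2 * l) * (x * x)) ^ m * x) (by
      rw [e, zpow_add_one, zpow_mul, zpow_two]; simp [pv, mul_assoc])
    exact ⟨w, hw, _, mul_mem (mem_sup_left (zpow_mem_zpowers _ _))
      (mem_sup_right (zpow_mem_zpowers _ _)), .inr (e'.trans (mul_assoc _ _ _).symm)⟩

include hm

omit [Finite G] in
theorem t_not : t ∉ zpowers v ⊔ zpowers x := fun ht => hm (meta_of_le (a := v) (b := x)
  (eq_top_iff.2 (h.gen.ge.trans (sup_le (zpowers_le.2 ht) le_sup_right))) h.com.le)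

omit [Finite G] in
theorem v_ne : v ≠ 1 := fun e => hm (meta_of_le h.gen (by rw [h.com, e]; simp))

include hG

theorem build (hc : ∀ c ∈ zpowers (v ^ (2 * l) * (x * x)) ⊔ zpowers (t * t), c ∈ zpowers v →
    c * c = 1 → c ∈ zpowers (t * t)) :
    ∃ F : FusionSystem (⊤ : Subgroup G), F.IsSaturated 2 ∧ F ≠ innerFusionSystem ⊤ := by
  have hn := h.normal
  set a := v ^ (2 * l) * (x * x) with ha
  set e := t * t with he
  have ee : e * e = 1 := h.four
  have cm : ∀ {p q : G}, p ∈ zpowers v → q ∈ zpowers v → p * q = q * p := by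
    rintro _ _ ⟨p, rfl⟩ ⟨q, rfl⟩; exact zpow_mul_comm v p q
  have ev : e ∈ zpowers v := by obtain ⟨u, hu, e'⟩ := h.sq; exact he ▸ e' ▸ mul_mem hu hu
  have ec : ∀ {c}, c ∈ zpowers e → c = 1 ∨ c = e := by
    rintro _ ⟨k, rfl⟩; exact (zpow_cases ee k).imp And.right And.right
  obtain ⟨i, iv, ii, ie, hi⟩ : ∃ i ∈ zpowers v, i * i = e ∧ i ∉ zpowers e ∧
      ∀ w ∈ zpowers v, w * w = 1 → w ∈ zpowers i := by
    by_cases e1 : e = 1
    · obtain ⟨k, k1, k2⟩ := Grp.PChain.exists_pow_notMem_pow_mem hG ⊥ (mt mem_bot.1 (h.v_ne hm))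
      rw [mem_bot, pow_two] at k2
      refine ⟨_, npow_mem_zpowers v _, k2.trans e1.symm, by simpa [e1] using k1, fun w hw w2 => ?_⟩
      by_cases w1 : w = 1
      · exact w1 ▸ one_mem _
      · exact inv_unique hG hw (npow_mem_zpowers v _) w1 (mt mem_bot.2 k1) w2 k2 ▸ mem_zpowers _
    · obtain ⟨u, hu, e'⟩ := h.sq
      refine ⟨u, hu, e'.symm, fun h1 => ?_, fun w hw w2 => ?_⟩
      · rcases ec h1 with rfl | h1
        · exact e1 (by simpa using e')
        · exact e1 (by rw [he, e', h1, ee])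
      by_cases w1 : w = 1
      · exact w1 ▸ one_mem _
      · rw [inv_unique hG hw ev w1 e1 w2 ee, he, e']
        exact mul_mem (mem_zpowers u) (mem_zpowers u)
  have i4 : i ^ (4 : ℤ) = 1 := by
    rw [show (4 : ℤ) = 2 * 2 by rfl, zpow_mul, zpow_two, zpow_two, ii, ee]
  have ei : zpowers e ≤ zpowers i := zpowers_le.2 (ii ▸ mul_mem (mem_zpowers i) (mem_zpowers i))
  have ivl := zpowers_le.2 iv
  set C := zpowers a ⊔ zpowers e with hC
  have cen : ∀ g, g * a = a * g → g * e = e * g → ∀ c ∈ C, g * c = c * g := fun g h1 h2 c hc =>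
    (mem_centralizer_singleton_iff.1 (sup_le (zpowers_le.2 (mem_centralizer_singleton_iff.2 h1.symm))
      (zpowers_le.2 (mem_centralizer_singleton_iff.2 h2.symm)) hc)).symm
  have ea : e * a = a * e := h.aw_comm ev (by rw [show (8 : ℤ) = 2 * 4 by rfl, zpow_mul, zpow_two, ee]; simp)
  have te : t * e = e * t := by rw [he]; group
  have hR : QR C i t e := ⟨mem_sup_right (mem_zpowers e), ee, ii, rfl, by
      calc _ = i * (t * i * t⁻¹) * (t * t) := by group
        _ = _ := by rw [h.tw iv, mul_inv_cancel, one_mul],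
    fun p hp q hq => cen p (cen a rfl ea.symm p hp).symm (cen e ea rfl p hp).symm q hq,
    cen i (h.aw_comm iv (by rw [show (8 : ℤ) = 4 * 2 by rfl, zpow_mul, i4]; simp)) (cm iv ev),
    cen t h.at_comm te⟩
  have hCl : C ≤ zpowers v ⊔ zpowers x := sup_le (zpowers_le.2 (mul_mem
    (mem_sup_left (zpow_mem_zpowers _ _)) (mem_sup_right (mul_mem (mem_zpowers x) (mem_zpowers x)))))
    ((zpowers_le.2 ev).trans le_sup_left)
  have hc' : ∀ c ∈ C, c ∈ zpowers v → c ∈ zpowers e := fun c h1 h2 => hc c h1 h2 (by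
    have := h.tw h2
    rw [hR.cj c h1, mul_inv_cancel_right] at this
    exact mul_eq_one_iff_eq_inv.2 this)
  have tn := h.t_not hm
  have itn : ∀ c ∈ C, c * (i * t) ∉ zpowers v ⊔ zpowers x := fun c h1 h2 => tn (by
    simpa using mul_mem (inv_mem (mul_mem (hCl h1) (mem_sup_left iv))) h2)
  have QA : ∀ q ∈ qx C i t, q ∈ zpowers v → q ∈ zpowers i := fun q h1 h2 => by
    obtain ⟨c, hc, rfl | rfl | rfl | rfl⟩ := hR.cases h1
    · exact ei (hc' _ hc h2)
    · exact mul_mem (ei (hc' _ hc (by simpa using mul_mem h2 (inv_mem iv)))) (mem_zpowers i)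
    · exact (tn (by simpa using mul_mem (inv_mem (hCl hc)) (mem_sup_left h2))).elim
    · exact (itn c hc (mem_sup_left h2)).elim
  have iQ : zpowers i ≤ qx C i t := zpowers_le.2 (i_mem_qx C i t)
  have tQ := j_mem_qx C i t
  have rQ : zpowers t ⊔ zpowers a ≤ qx C i t := sup_le (zpowers_le.2 tQ) (le_sup_left.trans (le_qx _ _ _))
  have rt : ∀ r ∈ zpowers t ⊔ zpowers a, r * t = t * r := fun r hr => mem_centralizer_singleton_iff.1
    (sup_le (zpowers_le.2 (mem_centralizer_singleton_iff.2 rfl))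
      (zpowers_le.2 (mem_centralizer_singleton_iff.2 h.at_comm.symm)) hr)
  have fin := fun s => exists_noninner (s := s) hG hR (fun h1 => ie (hc' i h1 iv))
    (fun h1 => tn (hCl h1)) (fun h1 => itn 1 (one_mem _) (by simpa using hCl h1))
  obtain ⟨p, hp⟩ := id iv
  simp only at hp
  obtain ⟨p, rfl | rfl⟩ := Int.even_or_odd' p
  · set s := v ^ p with hs
    have sv : s ∈ zpowers v := zpow_mem_zpowers v p
    have ss : s * s = i := by rw [← hp, hs]; group
    have wt : ∀ w ∈ zpowers v, w * t * w⁻¹ = w * w * t := fun w hw => by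
      calc _ = w * (t * w⁻¹ * t⁻¹) * t := by group
        _ = _ := by rw [h.tw (inv_mem hw), inv_inv]
    refine fin s (cen s (h.aw_comm sv (by
      rw [show (8 : ℤ) = 2 * 4 by rfl, zpow_mul, zpow_two, ss, i4])) (cm sv ev)) (cm sv iv)
      ⟨1, one_mem _, by rw [wt s sv, ss, one_mul]⟩ fun g hg => ?_
    obtain ⟨w, hw, r, hr, rfl | rfl⟩ := h.nf g
    · have h1 : w * w ∈ qx C i t := by
        have := hg t tQ
        rw [mul_assoc w, rt r hr, show w * (t * r) * (w * r)⁻¹ = w * t * w⁻¹ by group, wt w hw] at this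
        simpa using mul_mem this (inv_mem tQ)
      obtain ⟨k, hk⟩ := QA _ h1 (mul_mem hw hw)
      simp only at hk
      have sk := zpow_mem sv k
      have h2 := hi (w * (s ^ k)⁻¹) (mul_mem hw (inv_mem sk)) (by
        rw [mul_assoc, ← mul_assoc _ w, cm (inv_mem sk) hw, mul_assoc, ← mul_assoc, ← hk, ← ss,
          (Commute.refl s).mul_zpow]; group)
      obtain ⟨k, rfl | rfl⟩ := Int.even_or_odd' k
      · refine .inl (mul_mem (iQ ?_) (rQ hr))
        simpa using mul_mem h2 (show s ^ (2 * k) ∈ zpowers i by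
          rw [zpow_mul, zpow_two, ss]; exact zpow_mem_zpowers _ _)
      · refine .inr ?_
        rw [← mul_assoc, cm (inv_mem sv) hw]
        refine mul_mem (iQ ?_) (rQ hr)
        have := mul_mem h2 (show s ^ (2 * k) ∈ zpowers i by
          rw [zpow_mul, zpow_two, ss]; exact zpow_mem_zpowers _ _)
        rwa [show w * (s ^ (2 * k + 1))⁻¹ * s ^ (2 * k) = w * s⁻¹ by group] at this
    · exfalso
      have rv : r * v⁻¹ * r⁻¹ ∈ zpowers v := hn.conj_mem _ (inv_mem (mem_zpowers v)) r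
      have h1 : w * w * (r * v⁻¹ * r⁻¹) ∈ qx C i t := by
        have := hg t tQ
        rw [show w * r * x * t * (w * r * x)⁻¹ = w * r * (x * t * x⁻¹) * r⁻¹ * w⁻¹ by group, h.xt,
          show w * r * (v⁻¹ * t) * r⁻¹ * w⁻¹ = w * (r * v⁻¹ * r⁻¹) * w⁻¹ * (w * (r * t * r⁻¹) * w⁻¹) by
            group, rt r hr, mul_inv_cancel_right, wt w hw, cm hw rv, mul_inv_cancel_right,
            ← mul_assoc, cm rv (mul_mem hw hw)] at this
        simpa using mul_mem this (inv_mem tQ)
      have h2 := QA _ h1 (mul_mem (mul_mem hw hw) rv)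
      have hN : (zpowers (v * v)).Normal := normal_of_le_cyclic (N := zpowers v) inferInstance
        (zpowers_le.2 (mul_mem (mem_zpowers v) (mem_zpowers v)))
      have sq : ∀ u ∈ zpowers v, u * u ∈ zpowers (v * v) := by
        rintro _ ⟨k, rfl⟩; exact ⟨k, (Commute.refl v).mul_zpow k⟩
      have h3 := hN.conj_mem _ (mul_mem (inv_mem (sq w hw)) (zpowers_le.2 (ss ▸ sq s sv) h2)) r⁻¹
      obtain ⟨k, hk⟩ := inv_mem h3
      exact h.v_ne hm (mem_bot.1 (eq_one_of_mem_sq hG (one_mem ⊥) (k := k) (by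
        simp only at hk; rw [hk]; group)))
  · have vi : v ∈ zpowers i := mem_of_odd hG ⟨p, rfl⟩ (hp ▸ mem_zpowers _)
    have v4 : v ^ (4 : ℤ) = 1 := by
      obtain ⟨k, rfl⟩ := vi
      simp only [← zpow_mul]
      rw [mul_comm, zpow_mul, i4, one_zpow]
    have vQ : zpowers v ≤ qx C i t := zpowers_le.2 (iQ vi)
    have sw : ∀ w ∈ zpowers v, x * t * w = w * (x * t) := by
      rintro _ ⟨k, rfl⟩
      refine (Commute.zpow_right (?_ : x * t * v = v * (x * t)) k).eq
      calc _ = x * (t * v * t⁻¹) * x⁻¹ * (x * t) := by group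
        _ = (x * v * x⁻¹)⁻¹ * (x * t) := by rw [h.tv]; group
        _ = (v ^ (4 : ℤ)) ^ (-l) * v * (x * t) := by rw [h.xv]; group
        _ = _ := by rw [v4]; simp
    refine fin (x * t) (cen _ ?_ (sw e ev)) (sw i iv) ?_ fun g _ => ?_
    · have : x * v ^ (2 * l) * x⁻¹ = v ^ (2 * l) := by
        rw [h.xw (zpow_mem_zpowers v _), ← zpow_mul,
          show 2 * l * (4 * l - 1) = 4 * (2 * l * l - l) + 2 * l by ring, zpow_add, zpow_mul v 4, v4]
        simp
      rw [mul_assoc, h.at_comm]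
      calc _ = x * v ^ (2 * l) * x⁻¹ * (x * x * x * t) := by group
        _ = _ := by rw [this, ha]; group
    · obtain ⟨k, hk⟩ := inv_mem vi
      simp only at hk
      obtain ⟨k, rfl | rfl⟩ := Int.even_or_odd' k
      · rw [zpow_mul, zpow_two, ii] at hk
        exact (ie (zpowers_le.2 (inv_mem_iff.1 (hk ▸ zpow_mem_zpowers e k)) iv)).elim
      · refine ⟨e ^ k, zpow_mem_zpowers e k, ?_⟩
        rw [mul_inv_rev, ← mul_assoc, mul_assoc _ t, mul_inv_cancel, mul_one, h.xt, ← hk, zpow_add_one,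
          zpow_mul, zpow_two, ii, mul_assoc]
    · have hQ := normal_of_commutator_le (h.com.le.trans vQ)
      obtain ⟨w, hw, r, hr, rfl | rfl⟩ := h.nf g
      · exact .inl (mul_mem (vQ hw) (rQ hr))
      · refine .inr ?_
        have := mul_mem (inv_mem tQ) (hQ.conj_mem _ (mul_mem (vQ hw) (rQ hr)) x⁻¹)
        simpa [mul_assoc] using this

theorem build' (h1 : t * t ≠ 1) :
    ∃ F : FusionSystem (⊤ : Subgroup G), F.IsSaturated 2 ∧ F ≠ innerFusionSystem ⊤ := by
  refine h.build hG hm fun c _ h2 h3 => ?_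
  obtain ⟨u, hu, e⟩ := h.sq
  by_cases c1 : c = 1
  · exact c1 ▸ one_mem _
  · exact inv_unique hG h2 (e ▸ mul_mem hu hu) c1 h1 h3 h.four ▸ mem_zpowers _

end Dat

theorem exists_noninner_of_cyclic [Finite G] (hG : IsPGroup 2 G) (hm : ¬ IsMetacyclic G)
    (hc : IsCyclic (commutator G)) {x y : G} (h : Bi x y) :
    ∃ F : FusionSystem (⊤ : Subgroup G), F.IsSaturated 2 ∧ F ≠ innerFusionSystem ⊤ := by
  obtain ⟨t, b, hg, u, hu, e⟩ := exists_t hG hm hc h
  obtain ⟨x, v, l, d⟩ := exists_dat hG hm hc hg hu e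
  by_cases h1 : t * t = 1
  swap
  · exact d.build' hG hm h1
  by_contra hn
  refine hn (d.build hG hm fun c h2 h3 h4 => by_contra fun h5 => ?_)
  have c1 : c ≠ 1 := fun e => h5 (e ▸ one_mem _)
  rw [h1, zpowers_one_eq_bot, sup_bot_eq] at h2
  obtain ⟨m, hm'⟩ := h2
  simp only at hm'
  have hv := d.normal
  obtain ⟨m, rfl | rfl⟩ := Int.even_or_odd' m
  · set b := (v ^ (2 * l) * (x * x)) ^ m with hb
    have tb : t * b = b * t := (Commute.zpow_right d.at_comm m).eq
    have e1 : t * b * (t * b) = c := by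
      rw [mul_assoc, ← mul_assoc b, ← tb, ← mul_assoc, ← mul_assoc, h1, ← hm', hb]; group
    have hg' : zpowers (t * b) ⊔ zpowers x = ⊤ := by
      refine frattini_nongenerating (eq_top_iff.2 (d.gen.ge.trans (sup_le (zpowers_le.2 ?_)
        (le_sup_right.trans le_sup_left))))
      have h6 : b ∈ zpowers (t * b) ⊔ zpowers x ⊔ frattini G := zpow_mem (mul_mem
        (mem_sup_right (Grp.PFrattini.commutator_le_frattini hG (d.com ▸ zpow_mem_zpowers _ _)))
        (mem_sup_left (mem_sup_right (mul_mem (mem_zpowers x) (mem_zpowers x))))) m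
      simpa using mul_mem (mem_sup_left (mem_sup_left (mem_zpowers (t * b)))) (inv_mem h6)
    obtain ⟨p, hp⟩ := h3
    simp only at hp
    obtain ⟨p, rfl | rfl⟩ := Int.even_or_odd' p
    · obtain ⟨x', v', l', d'⟩ := exists_dat hG hm hc hg' (u := v ^ p)
        (d.com ▸ zpow_mem_zpowers _ _) (by rw [e1, ← hp]; group)
      exact hn (d'.build' hG hm (e1 ▸ c1))
    · exact hm (meta_of_le hg' (d.com ▸ zpowers_le.2 (mem_of_odd hG ⟨p, rfl⟩ (by
        rw [hp, ← e1]; exact mul_mem (mem_zpowers _) (mem_zpowers _)))))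
  · have h6 : x * x ∈ zpowers v := by
      have := mul_mem (inv_mem (zpow_mem_zpowers v (2 * l))) (mem_of_odd hG ⟨m, rfl⟩ (hm' ▸ h3))
      rwa [inv_mul_cancel_left] at this
    obtain ⟨p, hp⟩ := id h6
    simp only at hp
    obtain ⟨p, rfl | rfl⟩ := Int.even_or_odd' p
    · refine hm (meta_of_le (a := x * t) (b := t) (eq_top_iff.2 (d.gen.ge.trans (sup_le le_sup_right
        (zpowers_le.2 ?_)))) (d.com ▸ zpowers_le.2 (mem_of_odd hG (k := -(2 * p + 1))
          (Odd.neg ⟨p, rfl⟩) ?_)))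
      · simpa using mul_mem (mem_sup_left (mem_zpowers (x * t))) (inv_mem (mem_sup_right (mem_zpowers t)))
      · have : x * t * (x * t) = v ^ (-(2 * p + 1)) := by
          calc _ = x * t * x⁻¹ * (x * x) * t⁻¹ * (t * t) := by group
            _ = v⁻¹ * (t * (x * x) * t⁻¹) := by rw [d.xt, h1]; group
            _ = _ := by rw [d.tw h6, ← hp]; group
        exact this ▸ mul_mem (mem_zpowers _) (mem_zpowers _)
    · exact hm (meta_of_le (a := x) (b := t) ((sup_comm _ _).trans d.gen) (d.com ▸ zpowers_le.2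
        (mem_of_odd hG ⟨p, rfl⟩ (hp ▸ mul_mem (mem_zpowers _) (mem_zpowers _)))))

end Cfsg.Agent.Bicyc
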